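import Mathlib
import Cfsg.Agent.Lib.Classical.Symp.AltForm

/-!
# Subgroups of the isometry group containing many full transvection subgroups

`B` is a nondegenerate alternating form on a finite-dimensional space and `H` a subgroup of its
isometry group. A nonzero vector is *full* if all the transvections with that vector lie in `H`.
If `H` contains an element `u` fixing a full vector `e` such that every `u`-stable subspace which is
not contained in `e^⊥` has trivial radical-like orthogonal, and if enough full vectors are known,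
then every nonzero vector is full, so `H` is the whole isometry group.
-/

set_option autoImplicit false
set_option linter.unusedSectionVars false

namespace Cfsg.Agent.Lib.Classical.Symp.RegGrowth

open Cfsg.Agent.Lib.Classical.Symp.AltForm

variable {F V : Type*} [Field F] [AddCommGroup V] [Module F V]
variable {B : LinearMap.BilinForm F V}

/-- `x` is a nonzero vector all of whose transvections lie in `H`. -/
def Full (hA : B.IsAlt) (H : Subgroup (V ≃ₗ[F] V)) (x : V) : Prop :=
  x ≠ 0 ∧ ∀ c : F, tv hA x c ∈ H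

variable {hA : B.IsAlt} {H : Subgroup (V ≃ₗ[F] V)}

theorem tv_smul_vec (hA : B.IsAlt) (x : V) (a c : F) : tv hA (a • x) c = tv hA x (a ^ 2 * c) := by
  ext y
  simp only [tv_apply, map_smul, smul_eq_mul]
  module

theorem tv_zero_vec (hA : B.IsAlt) (c : F) : tv hA (0 : V) c = 1 := by
  ext y
  simp [tv_apply]

theorem Full.conj {x : V} (hx : Full hA H x) {g : V ≃ₗ[F] V} (hg : g ∈ H)
    (hg' : g ∈ IsomGroup B) : Full hA H (g x) := by
  refine ⟨by simpa using hx.1, fun c => ?_⟩
  rw [← tv_conj hA hg' x c]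
  exact mul_mem (mul_mem hg (hx.2 c)) (inv_mem hg)

theorem Full.smul {x : V} (hx : Full hA H x) {c : F} (hc : c ≠ 0) : Full hA H (c • x) := by
  refine ⟨smul_ne_zero hc hx.1, fun d => ?_⟩
  rw [tv_smul_vec]
  exact hx.2 _

theorem Full.add (hH : H ≤ IsomGroup B) {x y : V} (hx : Full hA H x) (hy : Full hA H y)
    (hxy : B x y ≠ 0) (c : F) : Full hA H (x + c • y) := by
  have h : tv hA y (c / B x y) x = x + c • y := by
    rw [tv_apply, div_mul_cancel₀ _ hxy]
  rw [← h]
  exact hx.conj (hy.2 _) (hH (hy.2 _))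

/-- A subspace on which the form is nondegenerate. -/
def Nondeg (B : LinearMap.BilinForm F V) (S : Submodule F V) : Prop :=
  ∀ x ∈ S, x ≠ 0 → ∃ y ∈ S, B x y ≠ 0

/-- A subspace all of whose nonzero vectors are full. -/
def FullSub (hA : B.IsAlt) (H : Subgroup (V ≃ₗ[F] V)) (S : Submodule F V) : Prop :=
  ∀ x ∈ S, x ≠ 0 → Full hA H x

theorem tvGroup_le_of_fullSub {S : Submodule F V} (hS : FullSub hA H S) :
    tvGroup hA (S : Set V) ≤ H := by
  rw [tvGroup, Subgroup.closure_le]
  rintro g ⟨w, hw, c, rfl⟩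
  by_cases h0 : w = 0
  · subst h0
    rw [tv_zero_vec]
    exact one_mem _
  · exact (hS w hw h0).2 c

/-- Vectors of `s + S^⊥` with the same `S^⊥` part are all full as soon as one of them is. -/
theorem full_translate (hH : H ≤ IsomGroup B) {S : Submodule F V} (hS : Nondeg B S)
    (hF : FullSub hA H S) {z : V} (hz : ∀ w ∈ S, B z w = 0) {s s' : V} (hs : s ∈ S) (hs' : s' ∈ S)
    (h0 : s ≠ 0) (h0' : s' ≠ 0) (hx : Full hA H (s + z)) : Full hA H (s' + z) := by
  obtain ⟨g, hg, h1⟩ := tvGroup_transitive_vec hA hS hs hs' h0 h0'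
  have hgz : g z = z := tvGroup_fix hA hg hz
  have hgH := tvGroup_le_of_fullSub hF hg
  have := hx.conj hgH (hH hgH)
  rwa [map_add, h1, hgz] at this

/-- `p` is orthogonal to `S`, nonzero, and every `s + p` with `0 ≠ s ∈ S` is full. -/
def Anch (hA : B.IsAlt) (H : Subgroup (V ≃ₗ[F] V)) (S : Submodule F V) (p : V) : Prop :=
  (∀ w ∈ S, B p w = 0) ∧ p ≠ 0 ∧ ∀ s ∈ S, s ≠ 0 → Full hA H (s + p)

/-- The local condition on `S` needed for the doubling step. -/
def Good (B : LinearMap.BilinForm F V) (S : Submodule F V) : Prop :=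
  ∀ s ∈ S, s ≠ 0 → ∀ c : F, c ≠ 0 → ∃ t ∈ S, t ≠ 0 ∧ s - c • t ≠ 0 ∧ B s t = 0

theorem good_of_exists (hA : B.IsAlt) (h3 : ∃ a : F, a ≠ 0 ∧ a ≠ 1) (S : Submodule F V) :
    Good B S := by
  intro s hs h0 c hc
  obtain ⟨a, ha0, ha1⟩ := h3
  refine ⟨(a * c⁻¹) • s, S.smul_mem _ hs, smul_ne_zero (mul_ne_zero ha0 (inv_ne_zero hc)) h0, ?_, ?_⟩
  · have : s - c • (a * c⁻¹) • s = (1 - a) • s := by
      rw [smul_smul, show c * (a * c⁻¹) = a by field_simp, sub_smul, one_smul]
    rw [this]
    exact smul_ne_zero (sub_ne_zero.2 (Ne.symm ha1)) h0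
  · simp [hA s]

theorem good_of_finrank [FiniteDimensional F V] {S : Submodule F V}
    (h3 : 3 ≤ Module.finrank F S) : Good B S := by
  intro s hs h0 c hc
  let ψ : S →ₗ[F] F := (B s).domRestrict S
  have h1 := LinearMap.finrank_range_add_finrank_ker ψ
  have h2 : Module.finrank F (LinearMap.range ψ) ≤ 1 := by
    have := Submodule.finrank_le (LinearMap.range ψ)
    simpa using this
  have h4 : 2 ≤ Module.finrank F (LinearMap.ker ψ) := by omega
  have h5 : ∃ x ∈ LinearMap.ker ψ, (x : V) ∉ Submodule.span F {s} := by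
    by_contra hcon
    push Not at hcon
    have h6 : (LinearMap.ker ψ).map S.subtype ≤ Submodule.span F {s} := by
      rintro _ ⟨x, hx, rfl⟩
      exact hcon x hx
    have h7 := Submodule.finrank_mono h6
    have h8 : Module.finrank F ((LinearMap.ker ψ).map S.subtype) =
        Module.finrank F (LinearMap.ker ψ) :=
      LinearEquiv.finrank_eq (Submodule.equivMapOfInjective _ S.subtype_injective _).symm
    have h9 : Module.finrank F (Submodule.span F {s}) ≤ 1 := (finrank_span_singleton h0).le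
    omega
  obtain ⟨x, hx, hxs⟩ := h5
  refine ⟨x, x.2, ?_, ?_, ?_⟩
  · intro hc0
    exact hxs (by rw [hc0]; exact Submodule.zero_mem _)
  · intro hc0
    apply hxs
    have : (x : V) = c⁻¹ • s := by
      rw [eq_inv_smul_iff₀ hc]
      exact (sub_eq_zero.1 hc0).symm
    rw [this]
    exact Submodule.smul_mem _ _ (Submodule.mem_span_singleton_self s)
  · exact hx

section Step

variable (hH : H ≤ IsomGroup B) {S : Submodule F V} {p₁ p₂ : V}

include hH

theorem Anch.smul (hp : Anch hA H S p₁) {c : F} (hc : c ≠ 0) : Anch hA H S (c • p₁) := by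
  refine ⟨fun w hw => ?_, smul_ne_zero hc hp.2.1, fun s hs h0 => ?_⟩
  · simp [hp.1 w hw]
  · have h := (hp.2.2 (c⁻¹ • s) (S.smul_mem _ hs) (smul_ne_zero (inv_ne_zero hc) h0)).smul hc
    have e : c • (c⁻¹ • s + p₁) = s + c • p₁ := by
      rw [smul_add, smul_smul, mul_inv_cancel₀ hc, one_smul]
    rwa [e] at h

theorem anch_add (hG : Good B S) (h₁ : Anch hA H S p₁) (h₂ : Anch hA H S p₂) (h12 : B p₁ p₂ ≠ 0)
    {c : F} (hc : c ≠ 0) : Anch hA H S (p₁ + c • p₂) := by
  refine ⟨fun w hw => ?_, ?_, fun s' hs' h0 => ?_⟩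
  · simp [h₁.1 w hw, h₂.1 w hw]
  · intro h
    apply h12
    have : B (p₁ + c • p₂) p₂ = B p₁ p₂ := by simp [hA p₂]
    rw [← this, h]
    simp
  · obtain ⟨t, ht, ht0, hst0, hst⟩ := hG s' hs' h0 c hc
    have hs1 : s' - c • t ∈ S := S.sub_mem hs' (S.smul_mem _ ht)
    have hx := h₁.2.2 _ hs1 hst0
    have hy := h₂.2.2 t ht ht0
    have hp1t : B p₁ t = 0 := h₁.1 t ht
    have hsp2 : B (s' - c • t) p₂ = 0 := by
      rw [alt_swap hA]
      simp [h₂.1 _ hs1]
    have hxy : B (s' - c • t + p₁) (t + p₂) ≠ 0 := by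
      have : B (s' - c • t + p₁) (t + p₂) = B p₁ p₂ := by
        rw [map_add (B (s' - c • t + p₁)), map_add B, LinearMap.add_apply, LinearMap.add_apply, hsp2,
          hp1t]
        simp [hst, hA t]
      rwa [this]
    have := hx.add hH hy hxy c
    have e : s' - c • t + p₁ + c • (t + p₂) = s' + (p₁ + c • p₂) := by module
    rwa [e] at this

theorem full_of_anch {s₀ : V} (hs₀ : s₀ ∈ S) (hs₀0 : s₀ ≠ 0) (h₁ : Anch hA H S p₁)
    (h₂ : Anch hA H S p₂) (h12 : B p₁ p₂ ≠ 0) {c : F} (hc : c ≠ 0) :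
    Full hA H (p₁ + c • p₂) := by
  have hm : (-c⁻¹) • s₀ ∈ S := S.smul_mem _ hs₀
  have hm0 : (-c⁻¹) • s₀ ≠ 0 := smul_ne_zero (neg_ne_zero.2 (inv_ne_zero hc)) hs₀0
  have hx := h₁.2.2 _ hs₀ hs₀0
  have hy := h₂.2.2 _ hm hm0
  have hxy : B (s₀ + p₁) ((-c⁻¹) • s₀ + p₂) ≠ 0 := by
    have e1 : B s₀ p₂ = 0 := by
      rw [alt_swap hA, h₂.1 _ hs₀, neg_zero]
    have e2 : B p₁ s₀ = 0 := h₁.1 _ hs₀
    have : B (s₀ + p₁) ((-c⁻¹) • s₀ + p₂) = B p₁ p₂ := by
      simp [hA s₀, e1, e2]
    rwa [this]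
  have := hx.add hH hy hxy c
  have e : s₀ + p₁ + c • ((-c⁻¹) • s₀ + p₂) = p₁ + c • p₂ := by
    rw [smul_add, smul_smul, mul_neg, mul_inv_cancel₀ hc]
    module
  rwa [e] at this

theorem full_right_of_anch (hG : Good B S) {s₀ : V} (hs₀ : s₀ ∈ S) (hs₀0 : s₀ ≠ 0)
    (h₁ : Anch hA H S p₁) (h₂ : Anch hA H S p₂) (h12 : B p₁ p₂ ≠ 0) : Full hA H p₂ := by
  have h3 := anch_add hH hG h₁ h₂ h12 (c := 1) one_ne_zero
  have hx := h3.2.2 _ hs₀ hs₀0
  have hy := h₁.2.2 _ hs₀ hs₀0
  have hxy : B (s₀ + (p₁ + (1 : F) • p₂)) (s₀ + p₁) ≠ 0 := by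
    have e1 : B s₀ p₁ = 0 := by
      rw [alt_swap hA, h₁.1 _ hs₀, neg_zero]
    have e2 : B p₁ s₀ = 0 := h₁.1 _ hs₀
    have e3 : B p₂ s₀ = 0 := h₂.1 _ hs₀
    have : B (s₀ + (p₁ + (1 : F) • p₂)) (s₀ + p₁) = - B p₁ p₂ := by
      rw [alt_swap hA p₁ p₂]
      simp [hA s₀, hA p₁, e1, e2, e3]
    rw [this]
    exact neg_ne_zero.2 h12
  have := hx.add hH hy hxy (-1)
  have e : s₀ + (p₁ + (1 : F) • p₂) + (-1 : F) • (s₀ + p₁) = p₂ := by module
  rwa [e] at this

/-- The two anchored vectors generate a full plane, mixing fully with `S`. -/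
theorem combos (hG : Good B S) {s₀ : V} (hs₀ : s₀ ∈ S) (hs₀0 : s₀ ≠ 0)
    (h₁ : Anch hA H S p₁) (h₂ : Anch hA H S p₂) (h12 : B p₁ p₂ ≠ 0) (α β : F)
    (hab : α ≠ 0 ∨ β ≠ 0) :
    Full hA H (α • p₁ + β • p₂) ∧ ∀ s ∈ S, s ≠ 0 → Full hA H (s + (α • p₁ + β • p₂)) := by
  have h21 : B p₂ p₁ ≠ 0 := by
    rw [alt_swap hA]
    exact neg_ne_zero.2 h12
  by_cases hα : α = 0
  · subst hα
    have hβ : β ≠ 0 := by tauto
    rw [zero_smul, zero_add]
    exact ⟨(full_right_of_anch hH hG hs₀ hs₀0 h₁ h₂ h12).smul hβ, (Anch.smul hH h₂ hβ).2.2⟩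
  · by_cases hβ : β = 0
    · subst hβ
      rw [zero_smul, add_zero]
      exact ⟨(full_right_of_anch hH hG hs₀ hs₀0 h₂ h₁ h21).smul hα, (Anch.smul hH h₁ hα).2.2⟩
    · have hq : β / α ≠ 0 := div_ne_zero hβ hα
      have e : α • p₁ + β • p₂ = α • (p₁ + (β / α) • p₂) := by
        rw [smul_add, smul_smul, mul_div_cancel₀ _ hα]
      rw [e]
      exact ⟨(full_of_anch hH hs₀ hs₀0 h₁ h₂ h12 hq).smul hα,
        (Anch.smul hH (anch_add hH hG h₁ h₂ h12 hq) hα).2.2⟩

end Step

section Extend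

variable {S : Submodule F V} {p₁ p₂ : V}

theorem mem_sup_pair {x : V} :
    x ∈ S ⊔ Submodule.span F {p₁, p₂} ↔ ∃ s ∈ S, ∃ α β : F, s + (α • p₁ + β • p₂) = x := by
  rw [Submodule.mem_sup]
  constructor
  · rintro ⟨a, ha, z, hz, rfl⟩
    obtain ⟨α, β, rfl⟩ := Submodule.mem_span_pair.mp hz
    exact ⟨a, ha, α, β, rfl⟩
  · rintro ⟨a, ha, α, β, rfl⟩
    exact ⟨a, ha, _, Submodule.mem_span_pair.mpr ⟨α, β, rfl⟩, rfl⟩

/-- Extending a nondegenerate full subspace by a nondegenerate full plane orthogonal to it. -/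
theorem extend (hS : Nondeg B S) (hF : FullSub hA H S) (h12 : B p₁ p₂ ≠ 0)
    (o₁ : ∀ w ∈ S, B p₁ w = 0) (o₂ : ∀ w ∈ S, B p₂ w = 0)
    (hc : ∀ α β : F, (α ≠ 0 ∨ β ≠ 0) →
      Full hA H (α • p₁ + β • p₂) ∧ ∀ s ∈ S, s ≠ 0 → Full hA H (s + (α • p₁ + β • p₂))) :
    S < S ⊔ Submodule.span F {p₁, p₂} ∧ Nondeg B (S ⊔ Submodule.span F {p₁, p₂}) ∧
      FullSub hA H (S ⊔ Submodule.span F {p₁, p₂}) := by
  have hp1 : p₁ ∈ S ⊔ Submodule.span F {p₁, p₂} :=
    Submodule.mem_sup_right (Submodule.subset_span (by simp))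
  have hp2 : p₂ ∈ S ⊔ Submodule.span F {p₁, p₂} :=
    Submodule.mem_sup_right (Submodule.subset_span (by simp))
  refine ⟨lt_of_le_of_ne le_sup_left ?_, ?_, ?_⟩
  · intro h
    have h1 : p₂ ∈ S := h ▸ hp2
    exact h12 (o₁ _ h1)
  · intro x hx hx0
    obtain ⟨s, hs, α, β, rfl⟩ := mem_sup_pair.mp hx
    have h21 : B p₂ p₁ ≠ 0 := by
      rw [alt_swap hA]
      exact neg_ne_zero.2 h12
    have s1 : B s p₁ = 0 := by
      rw [alt_swap hA, o₁ _ hs, neg_zero]
    have s2 : B s p₂ = 0 := by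
      rw [alt_swap hA, o₂ _ hs, neg_zero]
    by_cases hα : α = 0
    · by_cases hβ : β = 0
      · subst hα hβ
        have hs0 : s ≠ 0 := by simpa using hx0
        obtain ⟨y, hy, hne⟩ := hS s hs hs0
        refine ⟨y, Submodule.mem_sup_left hy, ?_⟩
        simpa using hne
      · subst hα
        refine ⟨p₁, hp1, ?_⟩
        simp [s1, hβ, h21]
    · refine ⟨p₂, hp2, ?_⟩
      simp [s2, hA p₂, hα, h12]
  · intro x hx hx0
    obtain ⟨s, hs, α, β, rfl⟩ := mem_sup_pair.mp hx
    by_cases hab : α ≠ 0 ∨ β ≠ 0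
    · by_cases hs0 : s = 0
      · subst hs0
        rw [zero_add]
        exact (hc α β hab).1
      · exact (hc α β hab).2 s hs hs0
    · push Not at hab
      obtain ⟨rfl, rfl⟩ := hab
      simp only [zero_smul, add_zero] at hx0 ⊢
      exact hF s hs hx0

end Extend

section Decomp

variable [FiniteDimensional F V]

/-- Splitting with respect to a nondegenerate subspace. -/
theorem exists_split (hA : B.IsAlt) {S : Submodule F V} (hS : Nondeg B S) (x : V) :
    ∃ s ∈ S, ∃ z : V, x = s + z ∧ ∀ w ∈ S, B z w = 0 := by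
  have hrefl : B.IsRefl := hA.isRefl
  have hd : Disjoint S (B.orthogonal S) := by
    rw [Submodule.disjoint_def]
    intro y hy hy2
    by_contra hy0
    obtain ⟨w, hw, hne⟩ := hS y hy hy0
    apply hne
    rw [alt_swap hA]
    have := hy2 w hw
    have h3 : B w y = 0 := this
    rw [h3, neg_zero]
  have hc := (LinearMap.BilinForm.isCompl_orthogonal_iff_disjoint hrefl).2 hd
  have hx : x ∈ S ⊔ B.orthogonal S := by
    rw [hc.sup_eq_top]
    trivial
  obtain ⟨s, hs, z, hz, rfl⟩ := Submodule.mem_sup.mp hx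
  refine ⟨s, hs, z, rfl, fun w hw => ?_⟩
  have h3 : B w z = 0 := hz w hw
  rw [alt_swap hA, h3, neg_zero]

theorem exists_orth_of_ne_top (hA : B.IsAlt) {S : Submodule F V} (hS : Nondeg B S) (hne : S ≠ ⊤) :
    ∃ z : V, z ≠ 0 ∧ ∀ w ∈ S, B z w = 0 := by
  obtain ⟨x, hx⟩ : ∃ x, x ∉ S := by
    by_contra hcon
    push Not at hcon
    exact hne (Submodule.eq_top_iff'.2 hcon)
  obtain ⟨s, hs, z, rfl, hz⟩ := exists_split hA hS x
  refine ⟨z, ?_, hz⟩
  rintro rfl
  apply hx
  simpa using hs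

end Decomp

section Main

variable [FiniteDimensional F V]

/-- The hypotheses about `u`. -/
structure UData (hA : B.IsAlt) (H : Subgroup (V ≃ₗ[F] V)) (u : V ≃ₗ[F] V) (e : V) : Prop where
  hH : H ≤ IsomGroup B
  hu : u ∈ H
  hue : u e = e
  he : Full hA H e
  hU : ∀ T : Submodule F V, (∀ x ∈ T, u x ∈ T) → ∀ t ∈ T, B t e ≠ 0 → ∀ z, (∀ x ∈ T, B x z = 0) →
    z = 0
  x₀ : ∃ x₀, Full hA H x₀ ∧ B x₀ e ≠ 0

variable {u : V ≃ₗ[F] V} {e : V}

/-- Full vectors are not all orthogonal to a nonzero vector. -/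
theorem UData.spanning (hd : UData hA H u e) {z : V} (hz : z ≠ 0) :
    ∃ y, Full hA H y ∧ B y z ≠ 0 := by
  by_contra hcon
  push Not at hcon
  obtain ⟨x₀, hx₀, hne⟩ := hd.x₀
  apply hz
  refine hd.hU (Submodule.span F {y | Full hA H y}) ?_ x₀ (Submodule.subset_span hx₀) hne z ?_
  · intro x hx
    induction hx using Submodule.span_induction with
    | mem y hy => exact Submodule.subset_span (Full.conj hy hd.hu (hd.hH hd.hu))
    | zero => simp
    | add a b _ _ ha hb =>
      rw [map_add]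
      exact Submodule.add_mem _ ha hb
    | smul c a _ ha =>
      rw [map_smul]
      exact Submodule.smul_mem _ _ ha
  · intro x hx
    induction hx using Submodule.span_induction with
    | mem y hy => exact hcon y hy
    | zero => simp
    | add a b _ _ ha hb => simp [ha, hb]
    | smul c a _ ha => simp [ha]

/-- A proper nondegenerate full subspace containing `e` is not `u`-stable, in a strong sense. -/
theorem UData.exists_out (hd : UData hA H u e) {S : Submodule F V} (hS : Nondeg B S)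
    (hne : S ≠ ⊤) (heS : e ∈ S) :
    ∃ w ∈ S, B w e ≠ 0 ∧ u w ∉ S := by
  obtain ⟨z, hz0, hz⟩ := exists_orth_of_ne_top hA hS hne
  obtain ⟨t, ht, hte⟩ : ∃ t ∈ S, B t e ≠ 0 := by
    obtain ⟨y, hy, hyne⟩ := hS e heS hd.he.1
    refine ⟨y, hy, ?_⟩
    rw [alt_swap hA]
    exact neg_ne_zero.2 hyne
  have hstable : ¬ ∀ x ∈ S, u x ∈ S := by
    intro hst
    apply hz0
    refine hd.hU S hst t ht hte z (fun x hx => ?_)
    rw [alt_swap hA, hz x hx, neg_zero]
  push Not at hstable
  obtain ⟨w, hw, huw⟩ := hstable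
  by_cases h1 : B w e = 0
  · by_cases h2 : u t ∈ S
    · refine ⟨t + w, S.add_mem ht hw, by simpa [h1] using hte, ?_⟩
      rw [map_add]
      intro h3
      apply huw
      have := S.sub_mem h3 h2
      simpa using this
    · exact ⟨t, ht, hte, h2⟩
  · exact ⟨w, hw, h1, huw⟩

/-- The growth step. -/
theorem UData.step (hd : UData hA H u e) {S : Submodule F V} (hS : Nondeg B S)
    (hF : FullSub hA H S) (hG : Good B S) (hne : S ≠ ⊤) (heS : e ∈ S) :
    ∃ S' : Submodule F V, S < S' ∧ Nondeg B S' ∧ FullSub hA H S' := by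
  have hH := hd.hH
  obtain ⟨w, hw, hwe, huw⟩ := hd.exists_out hS hne heS
  have hw0 : w ≠ 0 := by
    rintro rfl
    simp at hwe
  have hx := (hF w hw hw0).conj hd.hu (hH hd.hu)
  obtain ⟨s₁, hs₁, z₀, hsplit, hz₀⟩ := exists_split hA hS (u w)
  have hs₁0 : s₁ ≠ 0 := by
    rintro rfl
    apply hwe
    have h1 : B (u w) (u e) = B w e := hH hd.hu w e
    rw [hd.hue, hsplit, zero_add, hz₀ e heS] at h1
    exact h1.symm
  have hz₀0 : z₀ ≠ 0 := by
    rintro rfl
    apply huw
    rw [hsplit, add_zero]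
    exact hs₁
  rw [hsplit] at hx
  have hA₁ : Anch hA H S z₀ :=
    ⟨hz₀, hz₀0, fun s hs h0 => full_translate hH hS hF hz₀ hs₁ hs hs₁0 h0 hx⟩
  obtain ⟨y, hy, hyz⟩ := hd.spanning hz₀0
  obtain ⟨s₂, hs₂, y₀, rfl, hy₀⟩ := exists_split hA hS y
  have hs₂z : B s₂ z₀ = 0 := by
    rw [alt_swap hA, hz₀ _ hs₂, neg_zero]
  have hy₀z : B y₀ z₀ ≠ 0 := by
    simpa [hs₂z] using hyz
  have hzy₀ : B z₀ y₀ ≠ 0 := by
    rw [alt_swap hA]
    exact neg_ne_zero.2 hy₀z
  have hy₀0 : y₀ ≠ 0 := by
    rintro rfl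
    simp at hy₀z
  obtain ⟨p₂, hA₂, h12⟩ : ∃ p₂, Anch hA H S p₂ ∧ B z₀ p₂ ≠ 0 := by
    by_cases hs₂0 : s₂ = 0
    · subst hs₂0
      rw [zero_add] at hy
      refine ⟨z₀ + y₀, ⟨?_, ?_, ?_⟩, ?_⟩
      · intro w' hw'
        simp [hz₀ w' hw', hy₀ w' hw']
      · intro h
        apply hzy₀
        have : B z₀ (z₀ + y₀) = B z₀ y₀ := by simp [hA z₀]
        rw [← this, h]
        simp
      · intro s hs h0
        have h1 := hA₁.2.2 s hs h0
        have h2 : B (s + z₀) y₀ ≠ 0 := by
          have e1 : B s y₀ = 0 := by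
            rw [alt_swap hA, hy₀ _ hs, neg_zero]
          simpa [e1] using hzy₀
        have := h1.add hH hy h2 1
        rw [one_smul] at this
        rwa [add_assoc] at this
      · simpa [hA z₀] using hzy₀
    · exact ⟨y₀, ⟨hy₀, hy₀0, fun s hs h0 => full_translate hH hS hF hy₀ hs₂ hs hs₂0 h0 hy⟩, hzy₀⟩
  have hc := combos hH hG heS hd.he.1 hA₁ hA₂ h12
  obtain ⟨h1, h2, h3⟩ := extend hS hF h12 hA₁.1 hA₂.1 hc
  exact ⟨_, h1, h2, h3⟩

/-- If all nonzero vectors are full then `H` is the whole isometry group. -/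
theorem eq_isomGroup_of_full (hB : B.Nondegenerate) (hH : H ≤ IsomGroup B)
    (hfull : ∀ x : V, x ≠ 0 → Full hA H x) : H = IsomGroup B := by
  refine le_antisymm hH ?_
  rw [← tvGroup_univ_eq_isomGroup hA hB, tvGroup, Subgroup.closure_le]
  rintro g ⟨w, -, c, rfl⟩
  by_cases h0 : w = 0
  · subst h0
    rw [tv_zero_vec]
    exact one_mem _
  · exact (hfull w h0).2 c

/-- The growth induction. -/
theorem UData.eq_of_start (hd : UData hA H u e) (hB : B.Nondegenerate)
    {S₀ : Submodule F V} (hS₀ : Nondeg B S₀) (hF₀ : FullSub hA H S₀) (he₀ : e ∈ S₀)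
    (h3 : 3 ≤ Module.finrank F S₀ ∨ (∃ a : F, a ≠ 0 ∧ a ≠ 1)) : H = IsomGroup B := by
  have key : ∀ k : ℕ, ∀ S : Submodule F V, Module.finrank F V - Module.finrank F S = k →
      Nondeg B S → FullSub hA H S → e ∈ S →
      (3 ≤ Module.finrank F S ∨ (∃ a : F, a ≠ 0 ∧ a ≠ 1)) → ∀ x : V, x ≠ 0 → Full hA H x := by
    intro k
    induction k using Nat.strong_induction_on with
    | _ k ih =>
      intro S hk hS hF he h3
      by_cases hne : S = ⊤
      · subst hne
        exact fun x hx => hF x trivial hx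
      · have hG : Good B S := by
          rcases h3 with h3 | h3
          · exact good_of_finrank h3
          · exact good_of_exists hA h3 S
        obtain ⟨S', hlt, hS', hF'⟩ := hd.step hS hF hG hne he
        have h1 := Submodule.finrank_lt_finrank_of_lt hlt
        have h2 := Submodule.finrank_le S'
        refine ih (Module.finrank F V - Module.finrank F S') (by omega) S' rfl hS' hF'
          (hlt.le he) ?_
        rcases h3 with h3 | h3
        · left; omega
        · right; exact h3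
  exact eq_isomGroup_of_full hB hd.hH (key _ S₀ rfl hS₀ hF₀ he₀ h3)

/-- The plane spanned by two non-orthogonal full vectors is a nondegenerate full subspace. -/
theorem plane_start (hH : H ≤ IsomGroup B) {x y : V} (hx : Full hA H x) (hy : Full hA H y)
    (hxy : B x y ≠ 0) :
    Nondeg B (Submodule.span F {x, y}) ∧ FullSub hA H (Submodule.span F {x, y}) := by
  have hyx : B y x ≠ 0 := by
    rw [alt_swap hA]
    exact neg_ne_zero.2 hxy
  constructor
  · intro v hv hv0
    obtain ⟨α, β, rfl⟩ := Submodule.mem_span_pair.mp hv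
    by_cases hα : α = 0
    · subst hα
      have hβ : β ≠ 0 := by
        rintro rfl
        simp at hv0
      refine ⟨x, Submodule.subset_span (by simp), ?_⟩
      simp [hβ, hyx]
    · refine ⟨y, Submodule.subset_span (by simp), ?_⟩
      simp [hA y, hα, hxy]
  · intro v hv hv0
    obtain ⟨α, β, rfl⟩ := Submodule.mem_span_pair.mp hv
    by_cases hα : α = 0
    · subst hα
      have hβ : β ≠ 0 := by
        rintro rfl
        simp at hv0
      rw [zero_smul, zero_add]
      exact hy.smul hβ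
    · have e : α • x + β • y = α • (x + (β / α) • y) := by
        rw [smul_add, smul_smul, mul_div_cancel₀ _ hα]
      rw [e]
      exact (hx.add hH hy hxy _).smul hα

/-- The main theorem over fields with more than two elements. -/
theorem UData.eq_of_three (hd : UData hA H u e) (hB : B.Nondegenerate)
    (h3 : ∃ a : F, a ≠ 0 ∧ a ≠ 1) : H = IsomGroup B := by
  obtain ⟨x₀, hx₀, hne⟩ := hd.x₀
  have hne' : B e x₀ ≠ 0 := by
    rw [alt_swap hA]
    exact neg_ne_zero.2 hne
  obtain ⟨h1, h2⟩ := plane_start hd.hH hd.he hx₀ hne'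
  exact hd.eq_of_start hB h1 h2 (Submodule.subset_span (by simp)) (Or.inr h3)

/-- Over the field with two elements, an isotropic full plane leads to a full nondegenerate subspace
of dimension at least four. -/
theorem UData.start_two (hd : UData hA H u e) (h2 : ∀ a : F, a = 0 ∨ a = 1)
    {e₂ : V} (he₂ : Full hA H e₂) (he₃ : Full hA H (e + e₂)) (hee : B e e₂ = 0) :
    ∃ S : Submodule F V, Nondeg B S ∧ FullSub hA H S ∧ e ∈ S ∧ 3 ≤ Module.finrank F S := by
  have hH := hd.hH
  have hchar : (1 : F) + 1 = 0 := by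
    rcases h2 (1 + 1) with h | h
    · exact h
    · exfalso
      have : (1 : F) = 0 := by linear_combination h
      exact one_ne_zero this
  have hvv : ∀ v : V, v + v = 0 := by
    intro v
    have : v + v = ((1 : F) + 1) • v := by rw [add_smul, one_smul]
    rw [this, hchar, zero_smul]
  have hne1 : ∀ a : F, a ≠ 0 → a = 1 := fun a ha => (h2 a).resolve_left ha
  -- normalise the basis of the plane
  obtain ⟨x₁, hx₁, hx₁e⟩ := hd.spanning he₂.1
  obtain ⟨a, b, x, ha, hb, hab, hx, hxb, hxa, hBab, hspan⟩ : ∃ a b x : V, Full hA H a ∧ Full hA H b ∧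
      Full hA H (a + b) ∧ Full hA H x ∧ B x b ≠ 0 ∧ B x a = 0 ∧ B a b = 0 ∧ ∃ γ : F, e = a + γ • b := by
    by_cases h0 : B x₁ e = 0
    · exact ⟨e, e₂, x₁, hd.he, he₂, he₃, hx₁, hx₁e, h0, hee, 0, by simp⟩
    · refine ⟨e + e₂, e₂, x₁, he₃, he₂, ?_, hx₁, hx₁e, ?_, ?_, 1, ?_⟩
      · have : e + e₂ + e₂ = e := by
          rw [add_assoc, hvv, add_zero]
        rw [this]
        exact hd.he
      · rw [map_add, hne1 _ h0, hne1 _ hx₁e]
        exact hchar
      · simp [hee, hA e₂]
      · rw [one_smul, add_assoc, hvv, add_zero]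
  have hba : B b a = 0 := by
    rw [alt_swap hA, hBab, neg_zero]
  have hax : B a x = 0 := by
    rw [alt_swap hA, hxa, neg_zero]
  have hbx : B b x ≠ 0 := by
    rw [alt_swap hA]
    exact neg_ne_zero.2 hxb
  obtain ⟨hP, hPF⟩ := plane_start hH hb hx hbx
  set P := Submodule.span F {b, x} with hPdef
  -- `a` is anchored on `P`
  have hoa : ∀ w ∈ P, B a w = 0 := by
    intro w hw
    obtain ⟨α, β, rfl⟩ := Submodule.mem_span_pair.mp hw
    simp [hBab, hax]
  have hbP : b ∈ P := Submodule.subset_span (by simp)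
  have hxP : x ∈ P := Submodule.subset_span (by simp)
  have hxa' : Full hA H (x + a) := by
    have h1 : Full hA H (x + b) := by
      have := hx.add hH hb hxb 1
      rwa [one_smul] at this
    have h3 : B (x + b) (a + b) ≠ 0 := by
      simpa [hxa, hba, hA b] using hxb
    have := h1.add hH hab h3 1
    rw [one_smul] at this
    have e1 : x + b + (a + b) = x + a := by
      have : x + b + (a + b) = x + a + (b + b) := by abel
      rw [this, hvv, add_zero]
    rwa [e1] at this
  have hanch : ∀ s ∈ P, s ≠ 0 → Full hA H (s + a) := by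
    intro s hs h0
    obtain ⟨α, β, rfl⟩ := Submodule.mem_span_pair.mp hs
    rcases h2 α with rfl | rfl
    · rcases h2 β with rfl | rfl
      · simp at h0
      · simp only [zero_smul, zero_add, one_smul]
        exact hxa'
    · rcases h2 β with rfl | rfl
      · simp only [zero_smul, add_zero, one_smul]
        rw [add_comm]
        exact hab
      · simp only [one_smul]
        have h3 : B (x + a) b ≠ 0 := by
          simpa [hBab] using hxb
        have := hxa'.add hH hb h3 1
        rw [one_smul] at this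
        have e1 : x + a + b = b + x + a := by abel
        rwa [e1] at this
  -- the second vector
  obtain ⟨y, hy, hya⟩ := hd.spanning ha.1
  obtain ⟨w', hw', y₀, rfl, hy₀⟩ := exists_split hA hP y
  have hw'a : B w' a = 0 := by
    rw [alt_swap hA, hoa _ hw', neg_zero]
  have hy₀a : B y₀ a ≠ 0 := by
    simpa [hw'a] using hya
  have hay₀ : B a y₀ ≠ 0 := by
    rw [alt_swap hA]
    exact neg_ne_zero.2 hy₀a
  have hy₀0 : y₀ ≠ 0 := by
    rintro rfl
    simp at hy₀a
  -- common facts
  have horth : ∀ s ∈ P, B s y₀ = 0 ∧ B s a = 0 := by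
    intro s hs
    constructor
    · rw [alt_swap hA, hy₀ _ hs, neg_zero]
    · rw [alt_swap hA, hoa _ hs, neg_zero]
  obtain ⟨hay, hy₀F, hmix⟩ : Full hA H (a + y₀) ∧ Full hA H y₀ ∧ ∀ s ∈ P, s ≠ 0 → Full hA H (s + y₀) := by
    by_cases hw0 : w' = 0
    · subst hw0
      rw [zero_add] at hy
      have h1 : Full hA H (a + y₀) := by
        have := ha.add hH hy hay₀ 1
        rwa [one_smul] at this
      refine ⟨h1, hy, fun s hs h0 => ?_⟩
      have h3 : B (s + a) y₀ ≠ 0 := by
        simpa [(horth s hs).1] using hay₀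
      have h4 := (hanch s hs h0).add hH hy h3 1
      rw [one_smul] at h4
      have h5 : B (s + a + y₀) a ≠ 0 := by
        simpa [(horth s hs).2, hA a] using hy₀a
      have h6 := h4.add hH ha h5 1
      rw [one_smul] at h6
      have e1 : s + a + y₀ + a = s + y₀ := by
        have : s + a + y₀ + a = s + y₀ + (a + a) := by abel
        rw [this, hvv, add_zero]
      rwa [e1] at h6
    · have hmix : ∀ s ∈ P, s ≠ 0 → Full hA H (s + y₀) := fun s hs h0 =>
        full_translate hH hP hPF hy₀ hw' hs hw0 h0 hy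
      have h1 : Full hA H (a + y₀) := by
        have h3 : B (b + a) (b + y₀) ≠ 0 := by
          have e1 := (horth b hbP).1
          have e2 : B a b = 0 := hBab
          simpa [hA b, e1, e2] using hay₀
        have h4 := (hanch b hbP hb.1).add hH (hmix b hbP hb.1) h3 1
        rw [one_smul] at h4
        have e1 : b + a + (b + y₀) = a + y₀ := by
          have : b + a + (b + y₀) = a + y₀ + (b + b) := by abel
          rw [this, hvv, add_zero]
        rwa [e1] at h4
      have h5 : B (a + y₀) a ≠ 0 := by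
        simpa [hA a] using hy₀a
      have h6 := h1.add hH ha h5 1
      rw [one_smul] at h6
      have e1 : a + y₀ + a = y₀ := by
        have : a + y₀ + a = y₀ + (a + a) := by abel
        rw [this, hvv, add_zero]
      rw [e1] at h6
      exact ⟨h1, h6, hmix⟩
  have hc : ∀ α β : F, (α ≠ 0 ∨ β ≠ 0) →
      Full hA H (α • a + β • y₀) ∧ ∀ s ∈ P, s ≠ 0 → Full hA H (s + (α • a + β • y₀)) := by
    intro α β hab'
    rcases h2 α with rfl | rfl
    · rcases h2 β with rfl | rfl
      · simp at hab'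
      · simp only [zero_smul, zero_add, one_smul]
        exact ⟨hy₀F, hmix⟩
    · rcases h2 β with rfl | rfl
      · simp only [zero_smul, add_zero, one_smul]
        exact ⟨ha, hanch⟩
      · simp only [one_smul]
        refine ⟨hay, fun s hs h0 => ?_⟩
        have h3 : B (s + a) y₀ ≠ 0 := by
          simpa [(horth s hs).1] using hay₀
        have h4 := (hanch s hs h0).add hH hy₀F h3 1
        rw [one_smul] at h4
        rwa [add_assoc] at h4
  obtain ⟨h1, h3, h4⟩ := extend hP hPF hay₀ hoa hy₀ hc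
  refine ⟨_, h3, h4, ?_, ?_⟩
  · obtain ⟨γ, hγ⟩ := hspan
    rw [hγ]
    refine Submodule.add_mem _ (Submodule.mem_sup_right (Submodule.subset_span (by simp))) ?_
    exact Submodule.smul_mem _ _ (Submodule.mem_sup_left hbP)
  · have hlt := Submodule.finrank_lt_finrank_of_lt h1
    have hP2 : 2 ≤ Module.finrank F P := by
      have hli : LinearIndependent F ![b, x] := by
        rw [LinearIndependent.pair_iff]
        intro α β hαβ
        have h5 : B (α • b + β • x) x = α * B b x := by simp [hA x]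
        have h6 : B (α • b + β • x) b = β * B x b := by simp [hA b]
        rw [hαβ] at h5 h6
        simp only [map_zero, LinearMap.zero_apply] at h5 h6
        constructor
        · exact (mul_eq_zero.1 h5.symm).resolve_right hbx
        · exact (mul_eq_zero.1 h6.symm).resolve_right hxb
      have := finrank_span_eq_card hli
      have e : Set.range ![b, x] = ({b, x} : Set V) := by
        ext v
        simp only [Matrix.range_cons, Matrix.range_empty, Set.mem_insert_iff, Set.mem_singleton_iff,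
          Set.union_empty, Set.mem_union]
      rw [e, Fintype.card_fin] at this
      rw [hPdef]
      exact this.ge
    omega

/-- The main theorem over the field with two elements. -/
theorem UData.eq_of_two (hd : UData hA H u e) (hB : B.Nondegenerate)
    (h2 : ∀ a : F, a = 0 ∨ a = 1)
    {e₂ : V} (he₂ : Full hA H e₂) (he₃ : Full hA H (e + e₂)) (hee : B e e₂ = 0) :
    H = IsomGroup B := by
  obtain ⟨S, h1, h3, h4, h5⟩ := hd.start_two h2 he₂ he₃ hee
  exact hd.eq_of_start hB h1 h3 h4 (Or.inl h5)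

end Main

end Cfsg.Agent.Lib.Classical.Symp.RegGrowth
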