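import Mathlib
import Cfsg.Agent.Lib.Classical.Symp.AltForm

/-!
# A coordinate model of the symplectic space with a regular unipotent element

`V = F^{2n}` with basis `e₀, ..., e_{2n-1}` and the alternating form `f(x,y) = ∑ (-1)^k x_k y_{2n-1-k}`.
The isometries `T c π` add `c x_{k+1}` to `x_k` for `k ≡ π`, and `u = T 1 1 * T 1 0` is regular
unipotent.
-/

set_option autoImplicit false
set_option linter.unusedSectionVars false

namespace Cfsg.Agent.Lib.Classical.Symp.RegModel

open Cfsg.Agent.Lib.Classical.Symp.AltForm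

variable {F : Type*} [Field F] {n : ℕ}

/-- The sign `(-1)^i`. -/
def sg (F : Type*) [Field F] (i : ℕ) : F := if i % 2 = 0 then 1 else -1

/-- The coordinate with a natural number index (zero when out of range). -/
def get (x : Fin (2 * n) → F) (i : ℕ) : F := if h : i < 2 * n then x ⟨i, h⟩ else 0

/-- The basis vector with a natural number index (zero when out of range). -/
def ee (n : ℕ) (F : Type*) [Field F] (j : ℕ) : Fin (2 * n) → F := fun k => if (k : ℕ) = j then 1 else 0

theorem get_val (x : Fin (2 * n) → F) (k : Fin (2 * n)) : get x k = x k := by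
  simp [get]

theorem get_of_ge (x : Fin (2 * n) → F) {i : ℕ} (h : 2 * n ≤ i) : get x i = 0 := by
  simp [get, not_lt.2 h]

theorem ext_get {x y : Fin (2 * n) → F} (h : ∀ i, get x i = get y i) : x = y := by
  funext k
  have := h k
  rwa [get_val, get_val] at this

theorem get_add (x y : Fin (2 * n) → F) (i : ℕ) : get (x + y) i = get x i + get y i := by
  unfold get
  split_ifs <;> simp

theorem get_sub (x y : Fin (2 * n) → F) (i : ℕ) : get (x - y) i = get x i - get y i := by
  unfold get
  split_ifs <;> simp

theorem get_smul (c : F) (x : Fin (2 * n) → F) (i : ℕ) : get (c • x) i = c * get x i := by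
  unfold get
  split_ifs <;> simp

theorem get_zero (i : ℕ) : get (0 : Fin (2 * n) → F) i = 0 := by
  unfold get
  split_ifs <;> simp

theorem get_ee (j i : ℕ) : get (ee n F j) i = if i < 2 * n ∧ i = j then 1 else 0 := by
  unfold get ee
  by_cases h : i < 2 * n
  · simp [h]
  · simp [h]

theorem ee_eq_single (k : Fin (2 * n)) : ee n F k = Pi.single k 1 := by
  funext l
  simp [ee, Pi.single_apply, Fin.ext_iff]

/-- The alternating form of the model. -/
noncomputable def form (n : ℕ) (F : Type*) [Field F] : LinearMap.BilinForm F (Fin (2 * n) → F) :=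
  LinearMap.mk₂ F (fun x y => ∑ k : Fin (2 * n), sg F k * x k * y (Fin.rev k))
    (fun a b c => by
      simp only [Pi.add_apply, ← Finset.sum_add_distrib]
      exact Finset.sum_congr rfl fun i _ => by ring)
    (fun r a b => by
      simp only [Pi.smul_apply, smul_eq_mul, Finset.mul_sum]
      exact Finset.sum_congr rfl fun i _ => by ring)
    (fun a b c => by
      simp only [Pi.add_apply, ← Finset.sum_add_distrib]
      exact Finset.sum_congr rfl fun i _ => by ring)
    (fun r a b => by
      simp only [Pi.smul_apply, smul_eq_mul, Finset.mul_sum]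
      exact Finset.sum_congr rfl fun i _ => by ring)

theorem form_apply (x y : Fin (2 * n) → F) :
    form n F x y = ∑ k : Fin (2 * n), sg F k * x k * y (Fin.rev k) := rfl

theorem rev_val (k : Fin (2 * n)) : ((Fin.rev k : Fin (2 * n)) : ℕ) = 2 * n - 1 - k := by
  rw [Fin.val_rev]
  omega

theorem sg_rev (k : Fin (2 * n)) : sg F (Fin.rev k : Fin (2 * n)) = - sg F k := by
  rw [rev_val]
  have := k.2
  unfold sg
  split_ifs <;> first | omega | simp

theorem form_self (x : Fin (2 * n) → F) : form n F x x = 0 := by
  rw [form_apply]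
  refine Finset.sum_involution (fun k _ => Fin.rev k) ?_ ?_ (fun _ _ => Finset.mem_univ _) ?_
  · intro k _
    rw [sg_rev, Fin.rev_rev]
    ring
  · intro k _ _ h
    have h1 := congrArg Fin.val h
    rw [rev_val] at h1
    have := k.2
    omega
  · intro k _
    exact Fin.rev_rev k

theorem form_isAlt : (form n F).IsAlt := fun x => form_self x

theorem form_ee_right (x : Fin (2 * n) → F) {j : ℕ} (hj : j < 2 * n) :
    form n F x (ee n F j) = sg F (2 * n - 1 - j) * get x (2 * n - 1 - j) := by
  rw [form_apply]
  have h1 : 2 * n - 1 - j < 2 * n := by omega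
  rw [Finset.sum_eq_single (⟨2 * n - 1 - j, h1⟩ : Fin (2 * n))]
  · simp only [get, h1, dif_pos]
    have : (ee n F j) (Fin.rev (⟨2 * n - 1 - j, h1⟩ : Fin (2 * n))) = 1 := by
      simp only [ee]
      rw [rev_val]
      simp only
      rw [if_pos (by omega)]
    rw [this, mul_one]
  · intro k _ hk
    have : (ee n F j) (Fin.rev k) = 0 := by
      simp only [ee]
      rw [rev_val, if_neg]
      intro h
      apply hk
      apply Fin.ext
      simp only
      have := k.2
      omega
    rw [this, mul_zero]
  · simp

theorem form_ee_ee (i j : ℕ) :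
    form n F (ee n F i) (ee n F j) = if i < 2 * n ∧ i + j + 1 = 2 * n then sg F i else 0 := by
  by_cases hj : j < 2 * n
  · rw [form_ee_right _ hj, get_ee]
    by_cases h : i < 2 * n ∧ i + j + 1 = 2 * n
    · rw [if_pos h, if_pos (by omega), mul_one]
      congr 1
      omega
    · rw [if_neg h, if_neg (by omega), mul_zero]
  · have h0 : ee n F j = 0 := by
      funext k
      simp only [ee, Pi.zero_apply]
      rw [if_neg]
      have := k.2
      omega
    rw [h0, map_zero, if_neg (by omega)]

theorem form_nondeg : (form n F).Nondegenerate := by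
  have key : ∀ x : Fin (2 * n) → F, (∀ y, form n F x y = 0) → x = 0 := by
    intro x hx
    apply ext_get
    intro i
    rw [get_zero]
    by_cases hi : i < 2 * n
    · have h1 := hx (ee n F (2 * n - 1 - i))
      rw [form_ee_right _ (by omega), show 2 * n - 1 - (2 * n - 1 - i) = i by omega] at h1
      have h2 : sg F i ≠ 0 := by
        unfold sg
        split_ifs <;> simp
      exact (mul_eq_zero.1 h1).resolve_left h2
    · exact get_of_ge _ (by omega)
  refine ⟨fun x hx => key x hx, fun y hy => key y (fun x => ?_)⟩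
  rw [alt_swap form_isAlt, hy x, neg_zero]

/-- An equality of bilinear expressions can be checked on the basis. -/
theorem isom_of_basis (g : (Fin (2 * n) → F) →ₗ[F] (Fin (2 * n) → F))
    (h : ∀ i j : ℕ, i < 2 * n → j < 2 * n →
      form n F (g (ee n F i)) (g (ee n F j)) = form n F (ee n F i) (ee n F j))
    (x y : Fin (2 * n) → F) : form n F (g x) (g y) = form n F x y := by
  have key : (form n F).compl₁₂ g g = form n F := by
    refine LinearMap.ext_basis (Pi.basisFun F (Fin (2 * n))) (Pi.basisFun F (Fin (2 * n))) ?_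
    intro i j
    simp only [Pi.basisFun_apply, LinearMap.compl₁₂_apply, ← ee_eq_single]
    exact h i j i.2 j.2
  have := congrArg (fun B => B x y) key
  simpa using this

/-- The linear map adding `c x_{k+1}` to `x_k` for `k ≡ π`. -/
noncomputable def TL (c : F) (π : ℕ) : (Fin (2 * n) → F) →ₗ[F] (Fin (2 * n) → F) where
  toFun x := fun k => x k + if (k : ℕ) % 2 = π then c * get x (k + 1) else 0
  map_add' x y := by
    funext k
    simp only [Pi.add_apply, get_add]
    split_ifs <;> ring
  map_smul' r x := by
    funext k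
    simp only [Pi.smul_apply, smul_eq_mul, get_smul, RingHom.id_apply]
    split_ifs <;> ring

theorem get_TL (c : F) (π : ℕ) (x : Fin (2 * n) → F) (i : ℕ) :
    get (TL c π x) i = get x i + if i % 2 = π then c * get x (i + 1) else 0 := by
  by_cases hi : i < 2 * n
  · simp [get, hi, TL]
  · rw [get_of_ge _ (by omega), get_of_ge _ (by omega), get_of_ge x (by omega : 2 * n ≤ i + 1)]
    simp

theorem TL_TL (c d : F) (π : ℕ) (x : Fin (2 * n) → F) : TL c π (TL d π x) = TL (c + d) π x := by
  apply ext_get
  intro i
  simp only [get_TL]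
  by_cases h : i % 2 = π
  · rw [if_pos h, if_pos h, if_neg (by omega), if_pos h]
    ring
  · rw [if_neg h, if_neg h, if_neg h]
    ring

theorem TL_zero (π : ℕ) (x : Fin (2 * n) → F) : TL (0 : F) π x = x := by
  apply ext_get
  intro i
  simp [get_TL]

/-- The isometry `T c π`. -/
noncomputable def Tq (c : F) (π : ℕ) : (Fin (2 * n) → F) ≃ₗ[F] (Fin (2 * n) → F) :=
  LinearEquiv.ofLinearMap (TL c π) (TL (-c) π)
    (LinearMap.ext fun x => by
      simp only [LinearMap.comp_apply, LinearMap.id_apply]; rw [TL_TL]; simp [TL_zero])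
    (LinearMap.ext fun x => by
      simp only [LinearMap.comp_apply, LinearMap.id_apply]; rw [TL_TL]; simp [TL_zero])

theorem Tq_apply (c : F) (π : ℕ) (x : Fin (2 * n) → F) : Tq c π x = TL c π x := rfl

theorem get_Tq (c : F) (π : ℕ) (x : Fin (2 * n) → F) (i : ℕ) :
    get (Tq c π x) i = get x i + if i % 2 = π then c * get x (i + 1) else 0 := get_TL c π x i

theorem Tq_ee (c : F) (π : ℕ) {j : ℕ} (hj : j < 2 * n) :
    Tq c π (ee n F j) = ee n F j + if 1 ≤ j ∧ (j - 1) % 2 = π then c • ee n F (j - 1) else 0 := by
  apply ext_get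
  intro i
  rw [get_Tq, get_add]
  by_cases h : 1 ≤ j ∧ (j - 1) % 2 = π
  · rw [if_pos h, get_smul]
    simp only [get_ee]
    split_ifs <;> first | omega | ring
  · rw [if_neg h, get_zero]
    simp only [get_ee]
    split_ifs <;> first | omega | ring

theorem sg_pred {i : ℕ} (h : 1 ≤ i) : sg F (i - 1) = - sg F i := by
  unfold sg
  split_ifs <;> first | omega | simp

/-- `T c π` is an isometry. -/
theorem Tq_mem (c : F) (π : ℕ) : (Tq c π : (Fin (2 * n) → F) ≃ₗ[F] (Fin (2 * n) → F)) ∈
    IsomGroup (form n F) := by
  intro x y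
  refine isom_of_basis (TL c π) ?_ x y
  intro i j hi hj
  change form n F (Tq c π (ee n F i)) (Tq c π (ee n F j)) = _
  rw [Tq_ee c π hi, Tq_ee c π hj]
  by_cases h1 : 1 ≤ i ∧ (i - 1) % 2 = π
  · by_cases h2 : 1 ≤ j ∧ (j - 1) % 2 = π
    · rw [if_pos h1, if_pos h2]
      simp only [map_add, map_smul, LinearMap.add_apply, LinearMap.smul_apply, smul_eq_mul,
        form_ee_ee]
      by_cases h3 : i + j = 2 * n
      · rw [if_neg (by omega), if_pos (by omega), if_pos (by omega), if_neg (by omega),
          sg_pred h1.1]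
        ring
      · rw [if_neg (by omega : ¬ (i < 2 * n ∧ i + (j - 1) + 1 = 2 * n)),
          if_neg (by omega : ¬ (i - 1 < 2 * n ∧ i - 1 + j + 1 = 2 * n)),
          if_neg (by omega : ¬ (i - 1 < 2 * n ∧ i - 1 + (j - 1) + 1 = 2 * n))]
        ring
    · rw [if_pos h1, if_neg h2]
      simp only [map_add, map_smul, LinearMap.add_apply, LinearMap.smul_apply, smul_eq_mul,
        form_ee_ee, map_zero]
      rw [if_neg (by omega : ¬ (i - 1 < 2 * n ∧ i - 1 + j + 1 = 2 * n))]
      ring
  · by_cases h2 : 1 ≤ j ∧ (j - 1) % 2 = π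
    · rw [if_neg h1, if_pos h2]
      simp only [map_add, map_smul, LinearMap.add_apply, LinearMap.smul_apply, smul_eq_mul,
        form_ee_ee, map_zero, LinearMap.zero_apply]
      rw [if_neg (by omega : ¬ (i < 2 * n ∧ i + (j - 1) + 1 = 2 * n))]
      ring
    · rw [if_neg h1, if_neg h2]
      simp

/-- The regular unipotent element. -/
noncomputable def uu (n : ℕ) (F : Type*) [Field F] : (Fin (2 * n) → F) ≃ₗ[F] (Fin (2 * n) → F) :=
  Tq 1 1 * Tq 1 0

theorem uu_mem : uu n F ∈ IsomGroup (form n F) := mul_mem (Tq_mem _ _) (Tq_mem _ _)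

theorem get_uu (x : Fin (2 * n) → F) (i : ℕ) :
    get (uu n F x) i = get x i + get x (i + 1) + if i % 2 = 1 then get x (i + 2) else 0 := by
  have : uu n F x = Tq 1 1 (Tq 1 0 x) := rfl
  rw [this, get_Tq, get_Tq, get_Tq]
  by_cases h : i % 2 = 1
  · rw [if_pos h, if_pos h, if_neg (by omega), if_pos (by omega)]
    ring
  · rw [if_neg h, if_neg h, if_pos (by omega)]
    ring

/-- The nilpotent part of `u`. -/
noncomputable def NN (n : ℕ) (F : Type*) [Field F] : Module.End F (Fin (2 * n) → F) :=
  ((uu n F : (Fin (2 * n) → F) ≃ₗ[F] (Fin (2 * n) → F)) : (Fin (2 * n) → F) →ₗ[F] (Fin (2 * n) → F)) - 1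

theorem NN_apply (x : Fin (2 * n) → F) : NN n F x = uu n F x - x := rfl

theorem get_NN (x : Fin (2 * n) → F) (i : ℕ) :
    get (NN n F x) i = get x (i + 1) + if i % 2 = 1 then get x (i + 2) else 0 := by
  rw [NN_apply, get_sub, get_uu]
  ring

theorem get_NN_pow_zero (x : Fin (2 * n) → F) (k : ℕ) :
    ∀ i, 2 * n ≤ i + k → get ((NN n F ^ k) x) i = 0 := by
  induction k with
  | zero =>
    intro i hi
    exact get_of_ge _ (by omega)
  | succ k ih =>
    intro i hi
    rw [pow_succ', Module.End.mul_apply, get_NN, ih (i + 1) (by omega), ih (i + 2) (by omega)]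
    simp

theorem get_NN_pow_top (x : Fin (2 * n) → F) (k : ℕ) (hk : k + 1 ≤ 2 * n) :
    get ((NN n F ^ k) x) (2 * n - 1 - k) = get x (2 * n - 1) := by
  induction k with
  | zero => simp
  | succ k ih =>
    rw [pow_succ', Module.End.mul_apply, get_NN,
      show 2 * n - 1 - (k + 1) + 1 = 2 * n - 1 - k by omega, ih (by omega),
      get_NN_pow_zero x k _ (by omega)]
    simp

theorem NN_pow_eq_zero : NN n F ^ (2 * n) = 0 := by
  refine LinearMap.ext fun x => ?_
  apply ext_get
  intro i
  rw [get_NN_pow_zero x _ _ (by omega)]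
  simp [get_zero]

theorem NN_pow_ne_zero (hn : 1 ≤ n) : NN n F ^ (2 * n - 1) ≠ 0 := by
  intro h
  have h1 := get_NN_pow_top (ee n F (2 * n - 1)) (2 * n - 1) (by omega)
  have h2 : get (ee n F (2 * n - 1)) (2 * n - 1) = 1 := by
    rw [get_ee, if_pos ⟨by omega, rfl⟩]
  rw [h2, h] at h1
  simp only [LinearMap.zero_apply, get_zero] at h1
  exact zero_ne_one h1

/-- The key fact about `u`: a `u`-stable subspace not contained in `e₀^⊥` has trivial orthogonal. -/
theorem uu_stable (hn : 1 ≤ n) (T : Submodule F (Fin (2 * n) → F)) (hT : ∀ x ∈ T, uu n F x ∈ T)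
    {t : Fin (2 * n) → F} (ht : t ∈ T) (hte : form n F t (ee n F 0) ≠ 0)
    {z : Fin (2 * n) → F} (hz : ∀ x ∈ T, form n F x z = 0) : z = 0 := by
  have htm : get t (2 * n - 1) ≠ 0 := by
    intro h
    apply hte
    rw [form_ee_right _ (by omega), Nat.sub_zero, h, mul_zero]
  have hN : ∀ k, (NN n F ^ k) t ∈ T := by
    intro k
    induction k with
    | zero => simpa using ht
    | succ k ih =>
      rw [pow_succ', Module.End.mul_apply, NN_apply]
      exact T.sub_mem (hT _ ih) ih
  have hsg : ∀ i, sg F i ≠ 0 := by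
    intro i
    unfold sg
    split_ifs <;> simp
  have key : ∀ d j, j + d = 2 * n → ∀ l, j ≤ l → get z l = 0 := by
    intro d
    induction d with
    | zero =>
      intro j hj l hl
      exact get_of_ge _ (by omega)
    | succ d ih =>
      intro j hj l hl
      have hprev := ih (j + 1) (by omega)
      by_cases hlj : j < l
      · exact hprev l hlj
      have hlj' : l = j := by omega
      subst hlj'
      have h1 := hz _ (hN l)
      rw [form_apply, Finset.sum_eq_single (⟨2 * n - 1 - l, by omega⟩ : Fin (2 * n))] at h1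
      · have e1 : ((NN n F ^ l) t) (⟨2 * n - 1 - l, by omega⟩ : Fin (2 * n)) = get t (2 * n - 1) := by
          rw [← get_val ((NN n F ^ l) t)]
          exact get_NN_pow_top t l (by omega)
        have e2 : z (Fin.rev (⟨2 * n - 1 - l, by omega⟩ : Fin (2 * n))) = get z l := by
          rw [← get_val z]
          congr 1
          rw [rev_val]
          simp only
          omega
        rw [e1, e2] at h1
        exact (mul_eq_zero.1 h1).resolve_left (mul_ne_zero (hsg _) htm)
      · intro k _ hk
        by_cases h2 : 2 * n ≤ (k : ℕ) + l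
        · have : ((NN n F ^ l) t) k = 0 := by
            rw [← get_val ((NN n F ^ l) t)]
            exact get_NN_pow_zero t l _ h2
          rw [this]
          ring
        · have : z (Fin.rev k) = 0 := by
            rw [← get_val z]
            apply hprev
            rw [rev_val]
            have hk' : (k : ℕ) ≠ 2 * n - 1 - l := fun h => hk (Fin.ext h)
            omega
          rw [this, mul_zero]
      · simp
  apply ext_get
  intro i
  rw [get_zero]
  exact key (2 * n) 0 (by omega) i (by omega)

end Cfsg.Agent.Lib.Classical.Symp.RegModel
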