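import Mathlib
import Cfsg.Agent.Lib.Classical.Symp.RegModel

/-!
# Action of the model isometries on basis vectors; monomial isometries; seeds
-/

set_option autoImplicit false
set_option linter.unusedSectionVars false
set_option linter.unusedSimpArgs false

namespace Cfsg.Agent.Lib.Classical.Symp.RegModel

open Cfsg.Agent.Lib.Classical.Symp.AltForm

variable {F : Type*} [Field F] {n : ℕ}

theorem Tq0_odd (c : F) {j : ℕ} (hj : j < 2 * n) (h : j % 2 = 1) :
    Tq c 0 (ee n F j) = ee n F j + c • ee n F (j - 1) := by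
  rw [Tq_ee c 0 hj, if_pos ⟨by omega, by omega⟩]

theorem Tq0_even (c : F) {j : ℕ} (hj : j < 2 * n) (h : j % 2 = 0) :
    Tq c 0 (ee n F j) = ee n F j := by
  rw [Tq_ee c 0 hj, if_neg (by omega), add_zero]

theorem Tq1_even (c : F) {j : ℕ} (hj : j < 2 * n) (h2 : 2 ≤ j) (h : j % 2 = 0) :
    Tq c 1 (ee n F j) = ee n F j + c • ee n F (j - 1) := by
  rw [Tq_ee c 1 hj, if_pos ⟨by omega, by omega⟩]

theorem Tq1_low (c : F) {j : ℕ} (hj : j < 2 * n) (h : j % 2 = 1 ∨ j = 0) :
    Tq c 1 (ee n F j) = ee n F j := by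
  rw [Tq_ee c 1 hj, if_neg (by omega), add_zero]

theorem uu_apply (x : Fin (2 * n) → F) : uu n F x = Tq 1 1 (Tq 1 0 x) := rfl

theorem uu_ee_zero (hn : 1 ≤ n) : uu n F (ee n F 0) = ee n F 0 := by
  rw [uu_apply, Tq0_even _ (by omega) (by omega), Tq1_low _ (by omega) (by omega)]

theorem uu_ee_one (hn : 1 ≤ n) : uu n F (ee n F 1) = ee n F 1 + ee n F 0 := by
  rw [uu_apply, Tq0_odd _ (by omega) (by omega), map_add, one_smul,
    Tq1_low _ (by omega) (by omega), Tq1_low _ (by omega) (by omega)]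

theorem uu_ee_even {j : ℕ} (hj : j < 2 * n) (h2 : 2 ≤ j) (h : j % 2 = 0) :
    uu n F (ee n F j) = ee n F j + ee n F (j - 1) := by
  rw [uu_apply, Tq0_even _ hj h, Tq1_even _ hj h2 h, one_smul]

theorem uu_ee_two (hn : 2 ≤ n) : uu n F (ee n F 2) = ee n F 2 + ee n F 1 :=
  uu_ee_even (by omega) (by omega) (by omega)

/-- The difference of consecutive basis vectors is moved to the upper one by `u`. -/
theorem uu_diff {j : ℕ} (hj : j < 2 * n) (h : j % 2 = 1) :
    uu n F (ee n F j - ee n F (j - 1)) = ee n F j := by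
  have h1 : Tq (1 : F) 0 (ee n F j - ee n F (j - 1)) = ee n F j := by
    rw [map_sub, Tq0_odd _ hj h, Tq0_even _ (by omega) (by omega), one_smul, add_sub_cancel_right]
  rw [uu_apply, h1, Tq1_low _ hj (Or.inl h)]

/-- The same for the first factor. -/
theorem aa_diff {j : ℕ} (hj : j < 2 * n) (h : j % 2 = 1) :
    Tq (1 : F) 0 (ee n F j - ee n F (j - 1)) = ee n F j := by
  rw [map_sub, Tq0_odd _ hj h, Tq0_even _ (by omega) (by omega), one_smul, add_sub_cancel_right]

/-- The monomial linear map. -/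
noncomputable def ML (s : ℕ → F) : (Fin (2 * n) → F) →ₗ[F] (Fin (2 * n) → F) where
  toFun x := fun k => s k * x (Fin.rev k)
  map_add' x y := by
    funext k
    simp only [Pi.add_apply]
    ring
  map_smul' r x := by
    funext k
    simp only [Pi.smul_apply, smul_eq_mul, RingHom.id_apply]
    ring

/-- The inverse of the monomial linear map. -/
noncomputable def MLi (s : ℕ → F) : (Fin (2 * n) → F) →ₗ[F] (Fin (2 * n) → F) where
  toFun x := fun k => (s (Fin.rev k : Fin (2 * n)))⁻¹ * x (Fin.rev k)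
  map_add' x y := by
    funext k
    simp only [Pi.add_apply]
    ring
  map_smul' r x := by
    funext k
    simp only [Pi.smul_apply, smul_eq_mul, RingHom.id_apply]
    ring

/-- The condition making the monomial map an isometry. -/
def IsMono (n : ℕ) (s : ℕ → F) : Prop := ∀ i, i < 2 * n → s i * s (2 * n - 1 - i) = -1

theorem IsMono.ne_zero {s : ℕ → F} (hs : IsMono n s) (k : Fin (2 * n)) : s k ≠ 0 := by
  intro h
  have := hs k k.2
  rw [h, zero_mul] at this
  exact one_ne_zero (neg_eq_zero.1 this.symm)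

/-- The monomial isometry. -/
noncomputable def Mq (s : ℕ → F) (hs : IsMono n s) : (Fin (2 * n) → F) ≃ₗ[F] (Fin (2 * n) → F) :=
  LinearEquiv.ofLinearMap (ML s) (MLi s)
    (LinearMap.ext fun x => by
      funext k
      have h := hs.ne_zero k
      simp only [LinearMap.comp_apply, LinearMap.id_apply, ML, MLi, LinearMap.coe_mk, AddHom.coe_mk,
        Fin.rev_rev]
      field_simp)
    (LinearMap.ext fun x => by
      funext k
      have h := hs.ne_zero (Fin.rev k)
      simp only [LinearMap.comp_apply, LinearMap.id_apply, ML, MLi, LinearMap.coe_mk, AddHom.coe_mk,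
        Fin.rev_rev]
      field_simp)

theorem Mq_apply (s : ℕ → F) (hs : IsMono n s) (x : Fin (2 * n) → F) (k : Fin (2 * n)) :
    Mq s hs x k = s k * x (Fin.rev k) := rfl

theorem Mq_ee (s : ℕ → F) (hs : IsMono n s) {j : ℕ} (hj : j < 2 * n) :
    Mq s hs (ee n F j) = s (2 * n - 1 - j) • ee n F (2 * n - 1 - j) := by
  funext k
  rw [Mq_apply]
  simp only [ee, Pi.smul_apply, smul_eq_mul]
  rw [rev_val]
  have := k.2
  by_cases h : (k : ℕ) = 2 * n - 1 - j
  · rw [if_pos (by omega), if_pos h, h]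
  · rw [if_neg (by omega), if_neg h]
    ring

theorem Mq_mem (s : ℕ → F) (hs : IsMono n s) : Mq s hs ∈ IsomGroup (form n F) := by
  intro x y
  simp only [form_apply, Mq_apply, Fin.rev_rev]
  rw [← Equiv.sum_comp (Fin.revPerm : Equiv.Perm (Fin (2 * n)))]
  refine Finset.sum_congr rfl fun k _ => ?_
  simp only [Fin.revPerm_apply, Fin.rev_rev]
  have h1 := hs k k.2
  have h2 : s ((Fin.rev k : Fin (2 * n)) : ℕ) = s (2 * n - 1 - k) := by rw [rev_val]
  rw [h2, sg_rev]
  linear_combination (-(sg F k * x k * y (Fin.rev k))) * h1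

section Abstract

variable {V : Type*} [AddCommGroup V] [Module F V] {B : LinearMap.BilinForm F V}

/-- The "long root" element attached to two orthogonal vectors. -/
noncomputable def EE (hA : B.IsAlt) (a c : V) (l : F) : V ≃ₗ[F] V :=
  tv hA (a + c) l * tv hA a (-l) * tv hA c (-l)

theorem EE_mem (hA : B.IsAlt) (a c : V) (l : F) : EE hA a c l ∈ IsomGroup B :=
  mul_mem (mul_mem (tv_mem hA _ _) (tv_mem hA _ _)) (tv_mem hA _ _)

theorem EE_apply (hA : B.IsAlt) {a c : V} (l : F) (hac : B a c = 0) (x : V) :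
    EE hA a c l x = x + (l * B x c) • a + (l * B x a) • c := by
  have hca : B c a = 0 := by rw [alt_swap hA, hac, neg_zero]
  simp only [EE, LinearEquiv.mul_apply, tv_apply, map_add, map_smul, LinearMap.add_apply,
    LinearMap.smul_apply, smul_eq_mul, hA c, hA a, hac, hca, mul_zero, add_zero, zero_add]
  module

/-- The identity behind the seed for `n ≥ 3`. -/
theorem seed_identity (hA : B.IsAlt) {a b c : V} (l : F) (hab : B a b = 0) (hac : B a c = 0)
    (hbc : B b c = 0) :
    tv hA (a + (c + b)) l * tv hA a (-l) * tv hA (c + b) (-l) * tv hA (b + a) (-l) =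
      tv hA (a + c) l * tv hA a (-l) * tv hA c (-l) * tv hA b (-l) * tv hA a (-l) := by
  have hba : B b a = 0 := by rw [alt_swap hA, hab, neg_zero]
  have hca : B c a = 0 := by rw [alt_swap hA, hac, neg_zero]
  have hcb : B c b = 0 := by rw [alt_swap hA, hbc, neg_zero]
  ext x
  simp only [LinearEquiv.mul_apply, tv_apply, map_add, map_smul, LinearMap.add_apply,
    LinearMap.smul_apply, smul_eq_mul, hA c, hA a, hA b, hab, hac, hbc, hba, hca, hcb, mul_zero,
    add_zero, zero_add]
  module

end Abstract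

/-- The seed for `n ≥ 3`: a conjugate of `u` is a transvection times `u`. -/
theorem seed_three (hn : 3 ≤ n) (c₀ : F) :
    ∃ g ∈ IsomGroup (form n F),
      g * uu n F * g⁻¹ = tv (form_isAlt (n := n) (F := F)) (ee n F 0) c₀ * uu n F := by
  set hA := form_isAlt (n := n) (F := F)
  set a := ee n F 0
  set b := ee n F 1
  set c := ee n F 2
  have hua : uu n F a = a := uu_ee_zero (by omega)
  have hub : uu n F b = b + a := uu_ee_one (by omega)
  have huc : uu n F c = c + b := uu_ee_two (by omega)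
  have hab : form n F a b = 0 := by
    simp only [a, b, form_ee_ee]
    rw [if_neg (by omega)]
  have hac : form n F a c = 0 := by
    simp only [a, c, form_ee_ee]
    rw [if_neg (by omega)]
  have hbc : form n F b c = 0 := by
    simp only [b, c, form_ee_ee]
    rw [if_neg (by omega)]
  set l : F := -c₀ with hl
  set g₀ := tv hA (a + c) l * tv hA a (-l) * tv hA c (-l) * tv hA b (-l) with hg₀
  have hu := uu_mem (n := n) (F := F)
  have h1 : uu n F * g₀ * (uu n F)⁻¹ = g₀ * tv hA a (-l) := by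
    have e : uu n F * g₀ * (uu n F)⁻¹ =
        (uu n F * tv hA (a + c) l * (uu n F)⁻¹) * (uu n F * tv hA a (-l) * (uu n F)⁻¹) *
          (uu n F * tv hA c (-l) * (uu n F)⁻¹) * (uu n F * tv hA b (-l) * (uu n F)⁻¹) := by
      rw [hg₀]
      group
    rw [e, tv_conj hA hu, tv_conj hA hu, tv_conj hA hu, tv_conj hA hu, map_add, hua, hub, huc, hg₀]
    exact seed_identity hA l hab hac hbc
  refine ⟨g₀⁻¹, inv_mem (mul_mem (mul_mem (mul_mem (tv_mem hA _ _) (tv_mem hA _ _))
    (tv_mem hA _ _)) (tv_mem hA _ _)), ?_⟩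
  have h2 : tv hA a (-l) = tv hA a c₀ := by rw [hl, neg_neg]
  rw [← h2, inv_inv]
  have h3 : g₀⁻¹ * (uu n F * g₀ * (uu n F)⁻¹) = tv hA a (-l) := by
    rw [h1]
    group
  rw [← h3]
  group

/-- Transvection in coordinates: only used through the following formula. -/
theorem tv_ee_zero_apply (hn : 1 ≤ n) (c : F) (x : Fin (2 * n) → F) :
    tv (form_isAlt (n := n) (F := F)) (ee n F 0) c x =
      x + (- (c * get x (2 * n - 1))) • ee n F 0 := by
  rw [tv_apply, form_ee_right _ (by omega), Nat.sub_zero]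
  have : sg F (2 * n - 1) = -1 := by
    unfold sg
    rw [if_neg (by omega)]
  rw [this]
  congr 2
  ring

/-- The seed for `n = 2`. -/
theorem seed_two {s : F} :
    ∃ g ∈ IsomGroup (form 2 F),
      g * uu 2 F * g⁻¹ = tv (form_isAlt (n := 2) (F := F)) (ee 2 F 0) (s ^ 2 - s) * uu 2 F := by
  set hA := form_isAlt (n := 2) (F := F)
  refine ⟨Tq s 1 * Tq s 0, mul_mem (Tq_mem _ _) (Tq_mem _ _), ?_⟩
  rw [mul_inv_eq_iff_eq_mul]
  ext1 x
  simp only [LinearEquiv.mul_apply]
  rw [tv_ee_zero_apply (by omega)]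
  apply ext_get
  intro i
  have h4 : get x 4 = 0 := get_of_ge _ (by omega)
  have h5 : get x 5 = 0 := get_of_ge _ (by omega)
  have h6 : get x 6 = 0 := get_of_ge _ (by omega)
  have h7 : get x 7 = 0 := get_of_ge _ (by omega)
  have h8 : get x 8 = 0 := get_of_ge _ (by omega)
  by_cases hi : 2 * 2 ≤ i
  · rw [get_of_ge _ hi, get_of_ge _ hi]
  have hi' : i = 0 ∨ i = 1 ∨ i = 2 ∨ i = 3 := by omega
  rcases hi' with rfl | rfl | rfl | rfl <;>
    simp only [get_add, get_smul, get_uu, get_Tq, get_ee] <;>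
    norm_num [h4, h5, h6, h7, h8] <;> ring

end Cfsg.Agent.Lib.Classical.Symp.RegModel
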