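import Mathlib
import Cfsg.Agent.Lib.Classical.Symp.RegModel2
import Cfsg.Agent.Lib.Classical.Symp.RegGrowth
import Cfsg.Agent.Lib.Linalg.RootScale

/-!
# The conjugating element, the word `w u w`, and the generation criterion in the model
-/

set_option autoImplicit false
set_option linter.unusedSectionVars false
set_option linter.unusedSimpArgs false

namespace Cfsg.Agent.Lib.Classical.Symp.RegModel

open Cfsg.Agent.Lib.Classical.Symp.AltForm
open Cfsg.Agent.Lib.Classical.Symp.RegGrowth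

variable {F : Type*} [Field F] {n : ℕ}

/-- The isometry moving `e₁` to `e₁ + θ e₂` and fixing `e₀, e₂`. -/
theorem exists_yy (hn : 2 ≤ n) (θ : F) :
    ∃ y ∈ IsomGroup (form n F), y (ee n F 0) = ee n F 0 ∧ y (ee n F 1) = ee n F 1 + θ • ee n F 2 ∧
      y (ee n F 2) = ee n F 2 := by
  have hA := form_isAlt (n := n) (F := F)
  by_cases h2 : n = 2
  · subst h2
    refine ⟨tv hA (ee 2 F 2) (-θ), tv_mem hA _ _, ?_, ?_, ?_⟩
    · rw [tv_apply, form_ee_ee, if_neg (by omega)]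
      simp
    · rw [tv_apply, form_ee_ee, if_pos (by omega)]
      simp [sg]
    · rw [tv_apply, form_ee_ee, if_neg (by omega)]
      simp
  · have hn3 : 3 ≤ n := by omega
    have hac : form n F (ee n F 2) (ee n F (2 * n - 2)) = 0 := by
      rw [form_ee_ee, if_neg (by omega)]
    refine ⟨EE hA (ee n F 2) (ee n F (2 * n - 2)) (-θ), EE_mem hA _ _ _, ?_, ?_, ?_⟩
    · rw [EE_apply hA _ hac, form_ee_ee, form_ee_ee, if_neg (by omega), if_neg (by omega)]
      simp
    · rw [EE_apply hA _ hac, form_ee_ee, form_ee_ee, if_pos (by omega), if_neg (by omega)]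
      simp [sg]
    · rw [EE_apply hA _ hac, form_ee_ee, form_ee_ee, if_neg (by omega), if_neg (by omega)]
      simp

section Chain

/-- The conjugating element. -/
noncomputable def hh (s : ℕ → F) (hs : IsMono n s) (y : (Fin (2 * n) → F) ≃ₗ[F] (Fin (2 * n) → F)) :
    (Fin (2 * n) → F) ≃ₗ[F] (Fin (2 * n) → F) :=
  y * Mq s hs * Tq 1 0

theorem hh_apply (s : ℕ → F) (hs : IsMono n s) (y : (Fin (2 * n) → F) ≃ₗ[F] (Fin (2 * n) → F)) (x : Fin (2 * n) → F) :
    hh s hs y x = y (Mq s hs (Tq 1 0 x)) := rfl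

theorem hh_mem (s : ℕ → F) (hs : IsMono n s) {y : (Fin (2 * n) → F) ≃ₗ[F] (Fin (2 * n) → F)}
    (hy : y ∈ IsomGroup (form n F)) : hh s hs y ∈ IsomGroup (form n F) :=
  mul_mem (mul_mem hy (Mq_mem s hs)) (Tq_mem _ _)

/-- `s 0 ≠ 0`. -/
theorem s_zero_ne (hn : 2 ≤ n) (s : ℕ → F) (hs : IsMono n s) : s 0 ≠ 0 :=
  hs.ne_zero (⟨0, by omega⟩ : Fin (2 * n))

theorem Mq_top (hn : 2 ≤ n) (s : ℕ → F) (hs : IsMono n s) : Mq s hs (ee n F (2 * n - 1)) = s 0 • ee n F 0 := by
  rw [Mq_ee s hs (by omega), Nat.sub_self]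

theorem Mq_top1 (hn : 2 ≤ n) (s : ℕ → F) (hs : IsMono n s) : Mq s hs (ee n F (2 * n - 1 - 1)) = s 1 • ee n F 1 := by
  rw [Mq_ee s hs (by omega), show 2 * n - 1 - (2 * n - 1 - 1) = 1 by omega]

theorem Mq_top2 (hn : 2 ≤ n) (s : ℕ → F) (hs : IsMono n s) : Mq s hs (ee n F (2 * n - 1 - 2)) = s 2 • ee n F 2 := by
  rw [Mq_ee s hs (by omega), show 2 * n - 1 - (2 * n - 1 - 2) = 2 by omega]

/-- The preimage of `e₀`. -/
noncomputable def ep (n : ℕ) (s : ℕ → F) : Fin (2 * n) → F :=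
  (s 0)⁻¹ • (ee n F (2 * n - 1) - ee n F (2 * n - 1 - 1))

theorem hh_ep (hn : 2 ≤ n) (s : ℕ → F) (hs : IsMono n s) {y : (Fin (2 * n) → F) ≃ₗ[F] (Fin (2 * n) → F)}
    (hy0 : y (ee n F 0) = ee n F 0) : hh s hs y (ep n s) = ee n F 0 := by
  have h0 := s_zero_ne hn s hs
  rw [hh_apply, ep, map_smul, aa_diff (by omega) (by omega), map_smul, Mq_top hn s hs, smul_smul,
    inv_mul_cancel₀ h0, one_smul, hy0]

theorem uu_ep (hn : 2 ≤ n) (s : ℕ → F) : uu n F (ep n s) = (s 0)⁻¹ • ee n F (2 * n - 1) := by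
  rw [ep, map_smul, uu_diff (by omega) (by omega)]

theorem hh_top (hn : 2 ≤ n) (s : ℕ → F) (hs : IsMono n s) {θ : F}
    {y : (Fin (2 * n) → F) ≃ₗ[F] (Fin (2 * n) → F)}
    (hy0 : y (ee n F 0) = ee n F 0) (hy1 : y (ee n F 1) = ee n F 1 + θ • ee n F 2) :
    hh s hs y ((s 0)⁻¹ • ee n F (2 * n - 1)) =
    ee n F 0 + ((s 0)⁻¹ * s 1) • (ee n F 1 + θ • ee n F 2) := by
  have h0 := s_zero_ne hn s hs
  rw [hh_apply, map_smul, Tq0_odd _ (by omega) (by omega), one_smul, map_smul, map_add,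
    Mq_top hn s hs, Mq_top1 hn s hs, map_smul, map_add, map_smul, map_smul, hy0, hy1, smul_add,
    smul_smul, smul_smul, inv_mul_cancel₀ h0, one_smul]

/-- The preimage of `e₀` under `h u`. -/
noncomputable def ap (n : ℕ) (s : ℕ → F) : Fin (2 * n) → F :=
  (s 0)⁻¹ • ((ee n F (2 * n - 1) - ee n F (2 * n - 1 - 1)) - ee n F (2 * n - 1 - 1) +
    (ee n F (2 * n - 1 - 2) - ee n F (2 * n - 1 - 2 - 1)))

theorem uu_ap (hn : 2 ≤ n) (s : ℕ → F) : uu n F (ap n s) = ep n s := by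
  rw [ap, ep, map_smul, map_add, map_sub, uu_diff (by omega) (by omega),
    uu_diff (by omega) (by omega), uu_ee_even (by omega) (by omega) (by omega),
    show 2 * n - 1 - 1 - 1 = 2 * n - 1 - 2 by omega]
  congr 1
  abel

theorem hh_ap (hn : 2 ≤ n) (s : ℕ → F) (hs : IsMono n s) {θ : F}
    {y : (Fin (2 * n) → F) ≃ₗ[F] (Fin (2 * n) → F)}
    (hy0 : y (ee n F 0) = ee n F 0) (hy1 : y (ee n F 1) = ee n F 1 + θ • ee n F 2)
    (hy2 : y (ee n F 2) = ee n F 2) : hh s hs y (ap n s) =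
    ee n F 0 - ((s 0)⁻¹ * s 1) • (ee n F 1 + θ • ee n F 2) + ((s 0)⁻¹ * s 2) • ee n F 2 := by
  have h0 := s_zero_ne hn s hs
  rw [hh_apply, ap, map_smul, map_add, map_sub, aa_diff (by omega) (by omega),
    aa_diff (by omega) (by omega), Tq0_even _ (by omega) (by omega), map_smul, map_add, map_sub,
    Mq_top hn s hs, Mq_top1 hn s hs, Mq_top2 hn s hs, map_smul, map_add, map_sub, map_smul,
    map_smul, map_smul, hy0, hy1, hy2, smul_add, smul_sub, smul_smul, smul_smul, smul_smul,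
    inv_mul_cancel₀ h0, one_smul]

end Chain

section Word

variable {V : Type*} [AddCommGroup V] [Module F V]

/-- The abstract word computation. -/
theorem word_apply {h u : V ≃ₗ[F] V} {e₀ a₀ e₁ b₀ z z' : V} {p : F} (h1 : u a₀ = e₁) (h2 : u e₁ = b₀)
    (h3 : h a₀ = z') (h4 : h e₁ = e₀) (h5 : h b₀ = z) (h6 : u z = p • z') :
    ((h * u * h⁻¹) * u * (h * u * h⁻¹)) e₀ = p • e₀ := by
  have e1 : ∀ x, h⁻¹ (h x) = x := fun x => by
    change (h⁻¹ * h) x = x
    simp
  simp only [LinearEquiv.mul_apply]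
  rw [← h4, e1, h2, h5, h6, map_smul, map_smul, map_smul, ← h3, e1, h1]

theorem conj_apply {h u : V ≃ₗ[F] V} (x : V) : (h * u * h⁻¹) (h x) = h (u x) := by
  have e1 : h⁻¹ (h x) = x := by
    change (h⁻¹ * h) x = x
    simp
  simp only [LinearEquiv.mul_apply]
  rw [e1]

end Word

section Generic

/-- The word `w u w` scales `e₀`, for suitable parameters. -/
theorem word_scale (hn : 2 ≤ n) (s : ℕ → F) (hs : IsMono n s) {θ : F}
    {y : (Fin (2 * n) → F) ≃ₗ[F] (Fin (2 * n) → F)}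
    (hy0 : y (ee n F 0) = ee n F 0) (hy1 : y (ee n F 1) = ee n F 1 + θ • ee n F 2)
    (hy2 : y (ee n F 2) = ee n F 2) {p : F} (hs1 : s 1 = (p - 1) * s 0) (hs2 : p * s 2 = -(1 + p) ^ 2 * s 1)
    (hθ : θ = -(1 + p)) :
    let h := hh s hs y
    ((h * uu n F * h⁻¹) * uu n F * (h * uu n F * h⁻¹)) (ee n F 0) = p • ee n F 0 := by
  intro h
  have h0 := s_zero_ne hn s hs
  refine word_apply (uu_ap hn s) (uu_ep hn s) (hh_ap hn s hs hy0 hy1 hy2) (hh_ep hn s hs hy0)
    (hh_top hn s hs hy0 hy1) ?_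
  have e1 : (s 0)⁻¹ * s 1 = p - 1 := by
    rw [hs1]
    field_simp
  have e2 : p * ((s 0)⁻¹ * s 2) = -(1 + p) ^ 2 * (p - 1) := by
    rw [← e1]
    linear_combination (s 0)⁻¹ * hs2
  rw [e1, map_add, uu_ee_zero (by omega), map_smul, map_add, map_smul, uu_ee_one (by omega),
    uu_ee_two hn]
  set κ := (s 0)⁻¹ * s 2
  subst hθ
  have a1 : ee n F 0 + (p - 1) • (ee n F 1 + ee n F 0 + (-(1 + p)) • (ee n F 2 + ee n F 1)) =
      p • ee n F 0 + (p * -(p - 1)) • ee n F 1 + (-(p - 1) * (1 + p)) • ee n F 2 := by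
    module
  have a2 : p • (ee n F 0 - (p - 1) • (ee n F 1 + (-(1 + p)) • ee n F 2) + κ • ee n F 2) =
      p • ee n F 0 + (p * -(p - 1)) • ee n F 1 + (p * (p - 1) * (1 + p) + p * κ) • ee n F 2 := by
    module
  rw [a1, a2, e2]
  congr 2
  ring

/-- The image of `e₀` under `w`. -/
theorem word_w (hn : 2 ≤ n) (s : ℕ → F) (hs : IsMono n s) {θ : F}
    {y : (Fin (2 * n) → F) ≃ₗ[F] (Fin (2 * n) → F)}
    (hy0 : y (ee n F 0) = ee n F 0) (hy1 : y (ee n F 1) = ee n F 1 + θ • ee n F 2) :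
    let h := hh s hs y
    (h * uu n F * h⁻¹) (ee n F 0) = ee n F 0 + ((s 0)⁻¹ * s 1) • (ee n F 1 + θ • ee n F 2) := by
  intro h
  have e := conj_apply (h := h) (u := uu n F) (ep n s)
  rw [hh_ep hn s hs hy0, uu_ep hn s, hh_top hn s hs hy0 hy1] at e
  exact e

end Generic

/-- Some power of `u` moves a vector off the orthogonal of itself. -/
theorem exists_orbit (hn : 1 ≤ n) {v : Fin (2 * n) → F} (hv : form n F v (ee n F 0) ≠ 0) :
    ∃ j : ℕ, form n F ((uu n F ^ j) v) v ≠ 0 := by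
  by_contra hcon
  push Not at hcon
  have h0 : v = 0 := by
    refine uu_stable hn (Submodule.span F (Set.range fun j : ℕ => (uu n F ^ j) v)) ?_
      (t := v) (Submodule.subset_span ⟨0, by simp⟩) hv ?_
    · intro x hx
      induction hx using Submodule.span_induction with
      | mem y hy =>
        obtain ⟨j, rfl⟩ := hy
        refine Submodule.subset_span ⟨j + 1, ?_⟩
        simp only [pow_succ', LinearEquiv.mul_apply]
      | zero => simp
      | add a b _ _ ha hb =>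
        rw [map_add]
        exact Submodule.add_mem _ ha hb
      | smul c a _ ha =>
        rw [map_smul]
        exact Submodule.smul_mem _ _ ha
    · intro x hx
      induction hx using Submodule.span_induction with
      | mem y hy =>
        obtain ⟨j, rfl⟩ := hy
        exact hcon j
      | zero => simp
      | add a b _ _ ha hb => simp [ha, hb]
      | smul c a _ ha => simp [ha]
  rw [h0] at hv
  simp at hv

theorem conj_pow_apply {V : Type*} [AddCommGroup V] [Module F V] (h u : V ≃ₗ[F] V) (j : ℕ) (x : V) :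
    ((h * u * h⁻¹) ^ j) (h x) = h ((u ^ j) x) := by
  induction j with
  | zero => simp
  | succ j ih =>
    have e : ((h * u * h⁻¹) ^ (j + 1)) (h x) = (h * u * h⁻¹) (((h * u * h⁻¹) ^ j) (h x)) := by
      rw [pow_succ']
      rfl
    rw [e, ih, conj_apply, pow_succ']
    rfl

/-- The scaling lemma: all transvections with vector `e₀`. -/
theorem all_tv {V : Type*} [AddCommGroup V] [Module F V] {B : LinearMap.BilinForm F V} (hA : B.IsAlt)
    {H : Subgroup (V ≃ₗ[F] V)} (hH : H ≤ IsomGroup B) {e : V} {c₀ r : F} (hc₀ : c₀ ≠ 0)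
    (h0 : tv hA e c₀ ∈ H) {W : V ≃ₗ[F] V} (hW : W ∈ H) (hWe : W e = r • e)
    (hρ : Subring.closure ({r ^ 2} : Set F) = ⊤) (c : F) : tv hA e c ∈ H := by
  refine Cfsg.Agent.Lib.Linalg.RootScale.all_of_subring (P := fun c => tv hA e c ∈ H) hρ hc₀ ?_ h0 ?_ ?_ ?_ c
  · rw [tv_zero]
    exact one_mem _
  · intro x y hx hy
    rw [← tv_mul]
    exact mul_mem hx hy
  · intro x hx
    rw [← tv_inv]
    exact inv_mem hx
  · intro x hx
    have := tv_conj hA (hH hW) e x
    rw [hWe, tv_smul_vec] at this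
    rw [← this]
    exact mul_mem (mul_mem hW hx) (inv_mem hW)

end Cfsg.Agent.Lib.Classical.Symp.RegModel
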