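import Mathlib
import Cfsg.Agent.Lib.Classical.Symp.RegModel3

/-!
# The generation criterion in the model
-/

set_option autoImplicit false
set_option linter.unusedSectionVars false
set_option linter.unusedSimpArgs false

namespace Cfsg.Agent.Lib.Classical.Symp.RegModel

open Cfsg.Agent.Lib.Classical.Symp.AltForm
open Cfsg.Agent.Lib.Classical.Symp.RegGrowth

variable {F : Type*} [Field F] {n : ℕ}

/-- The subgroup generated by `u` and two conjugates. -/
noncomputable def HH (n : ℕ) (F : Type*) [Field F] (g h : (Fin (2 * n) → F) ≃ₗ[F] (Fin (2 * n) → F)) :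
    Subgroup ((Fin (2 * n) → F) ≃ₗ[F] (Fin (2 * n) → F)) :=
  Subgroup.closure {uu n F, g * uu n F * g⁻¹, h * uu n F * h⁻¹}

theorem uu_mem_HH (g h : (Fin (2 * n) → F) ≃ₗ[F] (Fin (2 * n) → F)) : uu n F ∈ HH n F g h :=
  Subgroup.subset_closure (by simp)

theorem conj_mem_HH (g h : (Fin (2 * n) → F) ≃ₗ[F] (Fin (2 * n) → F)) :
    g * uu n F * g⁻¹ ∈ HH n F g h :=
  Subgroup.subset_closure (by simp)

theorem conj'_mem_HH (g h : (Fin (2 * n) → F) ≃ₗ[F] (Fin (2 * n) → F)) :
    h * uu n F * h⁻¹ ∈ HH n F g h :=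
  Subgroup.subset_closure (by simp)

theorem HH_le {g h : (Fin (2 * n) → F) ≃ₗ[F] (Fin (2 * n) → F)} (hg : g ∈ IsomGroup (form n F))
    (hh' : h ∈ IsomGroup (form n F)) : HH n F g h ≤ IsomGroup (form n F) := by
  rw [HH, Subgroup.closure_le]
  intro x hx
  simp only [Set.mem_insert_iff, Set.mem_singleton_iff] at hx
  rcases hx with rfl | rfl | rfl
  · exact uu_mem
  · exact mul_mem (mul_mem hg uu_mem) (inv_mem hg)
  · exact mul_mem (mul_mem hh' uu_mem) (inv_mem hh')

/-- The generation criterion. -/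
theorem assemble (hn : 2 ≤ n) {g h : (Fin (2 * n) → F) ≃ₗ[F] (Fin (2 * n) → F)}
    (hg : g ∈ IsomGroup (form n F)) (hh' : h ∈ IsomGroup (form n F)) {c₀ : F} (hc₀ : c₀ ≠ 0)
    (hgu : g * uu n F * g⁻¹ = tv form_isAlt (ee n F 0) c₀ * uu n F)
    {e' : Fin (2 * n) → F} (hhe : h e' = ee n F 0) (hep : form n F e' (ee n F 0) ≠ 0)
    (hW : ∃ W ∈ HH n F g h, ∃ r : F, W (ee n F 0) = r • ee n F 0 ∧
      Subring.closure ({r ^ 2} : Set F) = ⊤)
    (hstart : (∃ a : F, a ≠ 0 ∧ a ≠ 1) ∨
      ((∀ a : F, a = 0 ∨ a = 1) ∧ (h * uu n F * h⁻¹) (ee n F 0) = ee n F 0 + ee n F 1)) :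
    HH n F g h = IsomGroup (form n F) := by
  have hA := form_isAlt (n := n) (F := F)
  set H := HH n F g h with hHdef
  have hH : H ≤ IsomGroup (form n F) := HH_le hg hh'
  have hu : uu n F ∈ H := uu_mem_HH g h
  have hwH : h * uu n F * h⁻¹ ∈ H := conj'_mem_HH g h
  have ht : tv form_isAlt (ee n F 0) c₀ ∈ H := by
    have e : tv form_isAlt (ee n F 0) c₀ = (g * uu n F * g⁻¹) * (uu n F)⁻¹ := by
      rw [hgu]
      group
    rw [e]
    exact mul_mem (conj_mem_HH g h) (inv_mem hu)
  obtain ⟨W, hWH, r, hWe, hρ⟩ := hW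
  have hall : ∀ c : F, tv form_isAlt (ee n F 0) c ∈ H :=
    all_tv form_isAlt hH hc₀ ht hWH hWe hρ
  have hee0 : ee n F 0 ≠ 0 := by
    intro h0
    have h1 := congrFun h0 (⟨0, by omega⟩ : Fin (2 * n))
    simp [ee] at h1
  have he : Full form_isAlt H (ee n F 0) := ⟨hee0, hall⟩
  obtain ⟨j, hj⟩ := exists_orbit (by omega : 1 ≤ n) hep
  have hx₀ : Full form_isAlt H (h ((uu n F ^ j) e')) := by
    rw [← conj_pow_apply, hhe]
    exact he.conj (pow_mem hwH j) (hH (pow_mem hwH j))
  have hne : form n F (h ((uu n F ^ j) e')) (ee n F 0) ≠ 0 := by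
    rw [← hhe, hh' _ _]
    exact hj
  have hd : UData form_isAlt H (uu n F) (ee n F 0) :=
    { hH := hH
      hu := hu
      hue := uu_ee_zero (by omega)
      he := he
      hU := fun T hT t ht hte z hz => uu_stable (by omega) T hT ht hte hz
      x₀ := ⟨_, hx₀, hne⟩ }
  rcases hstart with h3 | ⟨h2, hw1⟩
  · exact hd.eq_of_three form_nondeg h3
  · have hchar : (1 : F) + 1 = 0 := by
      rcases h2 (1 + 1) with h | h
      · exact h
      · exfalso
        have : (1 : F) = 0 := by linear_combination h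
        exact one_ne_zero this
    have he₃ : Full form_isAlt H (ee n F 0 + ee n F 1) := by
      rw [← hw1]
      exact he.conj hwH (hH hwH)
    have he₂ : Full form_isAlt H (ee n F 1) := by
      have h1 := he₃.conj hu (hH hu)
      rw [map_add, uu_ee_zero (by omega), uu_ee_one (by omega)] at h1
      have e : ee n F 0 + (ee n F 1 + ee n F 0) = ee n F 1 + ((1 : F) + 1) • ee n F 0 := by
        module
      rw [e, hchar, zero_smul, add_zero] at h1
      exact h1
    refine hd.eq_of_two form_nondeg h2 he₂ he₃ ?_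
    rw [form_ee_ee, if_neg (by omega)]

/-- The form value used for the orbit argument. -/
theorem form_ep (hn : 2 ≤ n) (s : ℕ → F) (hs : IsMono n s) : form n F (ep n s) (ee n F 0) ≠ 0 := by
  rw [form_ee_right _ (by omega), Nat.sub_zero, ep, get_smul, get_sub, get_ee, get_ee,
    if_pos (by omega), if_neg (by omega), sub_zero, mul_one]
  refine mul_ne_zero ?_ (inv_ne_zero (s_zero_ne hn s hs))
  unfold sg
  split_ifs <;> simp

/-- The existence of suitable monomial parameters. -/
theorem exists_mono (hn : 2 ≤ n) {s₀ s₁ s₂ : F} (h0 : s₀ ≠ 0) (h1 : s₁ ≠ 0) (h2 : s₂ ≠ 0) :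
    ∃ s : ℕ → F, IsMono n s ∧ s 0 = s₀ ∧ s 1 = s₁ ∧ s 2 = if n = 2 then - s₁⁻¹ else s₂ := by
  set t : ℕ → F := fun i => if i = 0 then s₀ else if i = 1 then s₁ else if i = 2 then s₂ else 1
    with ht
  have ht0 : ∀ i, t i ≠ 0 := by
    intro i
    simp only [ht]
    split_ifs <;> first | assumption | exact one_ne_zero
  refine ⟨fun i => if i < n then t i else - (t (2 * n - 1 - i))⁻¹, ?_, ?_, ?_, ?_⟩
  · intro i hi
    simp only
    by_cases h : i < n
    · rw [if_pos h, if_neg (by omega), show 2 * n - 1 - (2 * n - 1 - i) = i by omega]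
      field_simp [ht0 i]
    · rw [if_neg h, if_pos (by omega)]
      field_simp [ht0 (2 * n - 1 - i)]
  · simp only
    rw [if_pos (by omega)]
    simp [ht]
  · simp only
    rw [if_pos (by omega)]
    simp [ht]
  · simp only
    by_cases h : n = 2
    · subst h
      simp [ht]
    · rw [if_pos (by omega), if_neg h]
      simp [ht]

end Cfsg.Agent.Lib.Classical.Symp.RegModel
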