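import Mathlib
import Cfsg.Agent.Lib.Classical.Symp.RegModel4

/-!
# Parameters: the generation theorem in the model
-/

set_option autoImplicit false
set_option linter.unusedSectionVars false
set_option linter.unusedSimpArgs false

namespace Cfsg.Agent.Lib.Classical.Symp.RegModel

open Cfsg.Agent.Lib.Classical.Symp.AltForm
open Cfsg.Agent.Lib.Classical.Symp.RegGrowth

variable {F : Type*} [Field F] {n : ℕ}

/-- If `ρ` lies in no proper subfield then it generates the field as a ring. -/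
theorem closure_eq_top_of [Fintype F] {ρ : F}
    (h : ∀ m d : ℕ, m ^ d = Fintype.card F → 2 ≤ d → 2 ≤ m → ρ ^ m ≠ ρ) :
    Subring.closure ({ρ} : Set F) = ⊤ := by
  classical
  set K := Subring.closure ({ρ} : Set F) with hK
  have h2 : 2 ≤ Fintype.card F := Fintype.one_lt_card
  have hinv : ∀ x ∈ K, x⁻¹ ∈ K := by
    intro x hx
    by_cases hx0 : x = 0
    · simp [hx0, K.zero_mem]
    · have h1 : x ^ (Fintype.card F - 1) = 1 := FiniteField.pow_card_sub_one_eq_one x hx0
      have h3 : x⁻¹ = x ^ (Fintype.card F - 2) := by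
        have h4 : x ^ (Fintype.card F - 2) * x = 1 := by
          rw [← pow_succ, ← h1]
          congr 1
          omega
        exact (eq_inv_of_mul_eq_one_left h4).symm
      rw [h3]
      exact K.pow_mem hx _
  let L : Subfield F := { K with inv_mem' := hinv }
  have hmem : ∀ x : F, x ∈ L ↔ x ∈ K := fun x => Iff.rfl
  have hρL : ρ ∈ L := (hmem ρ).2 (Subring.subset_closure rfl)
  have : Fintype L := Fintype.ofFinite L
  have hcard : Fintype.card F = Fintype.card L ^ Module.finrank L F :=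
    Module.card_eq_pow_finrank (K := L) (V := F)
  set m := Fintype.card L with hm
  have hm2 : 2 ≤ m := Fintype.one_lt_card
  set d := Module.finrank L F with hd
  have hd1 : 1 ≤ d := by
    by_contra hc
    have : d = 0 := by omega
    rw [this, pow_zero] at hcard
    omega
  by_cases hd2 : d = 1
  · rw [hd2, pow_one] at hcard
    have hbij : Function.Bijective (Subtype.val : L → F) :=
      (Fintype.bijective_iff_injective_and_card _).2 ⟨Subtype.val_injective, hcard.symm⟩
    rw [eq_top_iff]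
    intro x _
    obtain ⟨y, rfl⟩ := hbij.2 x
    exact y.2
  · exfalso
    have hd3 : 2 ≤ d := by omega
    refine h m d hcard.symm hd3 hm2 ?_
    have h5 := FiniteField.pow_card (⟨ρ, hρL⟩ : L)
    have h6 := congrArg Subtype.val h5
    simpa using h6

/-- A generator of the multiplicative group. -/
theorem exists_gen [Fintype F] : ∃ a : F, a ≠ 0 ∧ ∀ k : ℕ, a ^ k = 1 → Fintype.card F - 1 ∣ k := by
  classical
  obtain ⟨a₀, ha₀⟩ := IsCyclic.exists_generator (α := Fˣ)
  have hord₀ : orderOf a₀ = Fintype.card F - 1 := by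
    rw [orderOf_eq_card_of_forall_mem_zpowers ha₀, Nat.card_eq_fintype_card, Fintype.card_units]
  refine ⟨(a₀ : F), a₀.ne_zero, fun k hk => ?_⟩
  rw [← hord₀]
  apply orderOf_dvd_of_pow_eq_one
  apply Units.ext
  simpa using hk

theorem pow_dvd_of [Fintype F] {a : F} (ha0 : a ≠ 0) (hord : ∀ k : ℕ, a ^ k = 1 → Fintype.card F - 1 ∣ k)
    {e m : ℕ} (hm : 2 ≤ m) (h : (a ^ e) ^ m = a ^ e) : Fintype.card F - 1 ∣ e * (m - 1) := by
  apply hord
  have h0 : a ^ e ≠ 0 := pow_ne_zero _ ha0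
  have h1 : (a ^ e) ^ (m - 1) * a ^ e = 1 * a ^ e := by
    rw [← pow_succ, one_mul, show m - 1 + 1 = m by omega, h]
  rw [pow_mul]
  exact mul_right_cancel₀ h0 h1

/-- Parameter for `n ≥ 3`. -/
theorem exists_param_three [Fintype F] {m d : ℕ} (hq : m ^ d = Fintype.card F) (hd : 2 ≤ d)
    (hm : 2 ≤ m) : ∃ p : F, p ≠ 0 ∧ p ≠ 1 ∧ 1 + p ≠ 0 ∧ Subring.closure ({p ^ 2} : Set F) = ⊤ := by
  obtain ⟨a, ha0, hord⟩ := exists_gen (F := F)
  have hq4 : m ^ 2 ≤ Fintype.card F := by
    rw [← hq]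
    exact Nat.pow_le_pow_right (by omega) hd
  have h4 : 4 ≤ Fintype.card F := by nlinarith
  refine ⟨a, ha0, ?_, ?_, ?_⟩
  · intro h
    have h1 := hord 1 (by simpa using h)
    have := Nat.le_of_dvd (by norm_num) h1
    omega
  · intro h
    have h1 : a = -1 := by linear_combination h
    have h2 : a ^ 2 = 1 := by
      rw [h1]
      ring
    have := Nat.le_of_dvd (by norm_num) (hord 2 h2)
    omega
  · refine closure_eq_top_of ?_
    intro m' d' hq' hd' hm' hc
    have h1 := pow_dvd_of ha0 hord hm' hc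
    have h2 := Nat.le_of_dvd (Nat.mul_pos (by norm_num) (by omega)) h1
    have h3 : m' ^ 2 ≤ Fintype.card F := by
      rw [← hq']
      exact Nat.pow_le_pow_right (by omega) hd'
    obtain ⟨k, rfl⟩ : ∃ k, m' = k + 2 := ⟨m' - 2, by omega⟩
    have h5 : k + 2 - 1 = k + 1 := by omega
    rw [h5] at h2
    have h6 : Fintype.card F ≤ 2 * (k + 1) + 1 := by omega
    nlinarith

/-- Parameter for `n = 2`. -/
theorem exists_param_two [Fintype F] {m d : ℕ} (hq : m ^ d = Fintype.card F) (hd : 2 ≤ d)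
    (hm : 2 ≤ m) (h9 : Fintype.card F ≠ 9) :
    ∃ π : F, π ≠ 0 ∧ π ^ 2 ≠ 1 ∧ 1 + π ^ 2 ≠ 0 ∧ Subring.closure ({(π ^ 2) ^ 2} : Set F) = ⊤ := by
  obtain ⟨a, ha0, hord⟩ := exists_gen (F := F)
  have hq4 : m ^ 2 ≤ Fintype.card F := by
    rw [← hq]
    exact Nat.pow_le_pow_right (by omega) hd
  have h4 : 4 ≤ Fintype.card F := by nlinarith
  refine ⟨a, ha0, ?_, ?_, ?_⟩
  · intro h
    have := Nat.le_of_dvd (by norm_num) (hord 2 h)
    omega
  · intro h
    have h1 : a ^ 2 = -1 := by linear_combination h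
    have h2 : a ^ 4 = 1 := by
      have : a ^ 4 = (a ^ 2) ^ 2 := by ring
      rw [this, h1]
      ring
    have h3 := hord 4 h2
    have h5 := Nat.le_of_dvd (by norm_num) h3
    have h6 : Fintype.card F = 4 ∨ Fintype.card F = 5 := by omega
    rcases h6 with h6 | h6
    · rw [h6] at h3
      norm_num at h3
    · rw [h6] at hq hq4
      have hm2 : m = 2 := by nlinarith
      subst hm2
      have hd3 : d ≤ 2 := by
        by_contra hc
        have : 2 ^ 3 ≤ 2 ^ d := Nat.pow_le_pow_right (by norm_num) (by omega)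
        omega
      have hd2 : d = 2 := by omega
      subst hd2
      norm_num at hq
  · rw [← pow_mul]
    refine closure_eq_top_of ?_
    intro m' d' hq' hd' hm' hc
    have h1 := pow_dvd_of ha0 hord hm' hc
    have h2 := Nat.le_of_dvd (Nat.mul_pos (by norm_num) (by omega)) h1
    have h3 : m' ^ 2 ≤ Fintype.card F := by
      rw [← hq']
      exact Nat.pow_le_pow_right (by omega) hd'
    obtain ⟨k, rfl⟩ : ∃ k, m' = k + 2 := ⟨m' - 2, by omega⟩
    have h5 : k + 2 - 1 = k + 1 := by omega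
    rw [h5] at h2 h1
    have h6 : Fintype.card F ≤ 2 * 2 * (k + 1) + 1 := by omega
    have hk : k ≤ 1 := by nlinarith
    interval_cases k
    · -- `m' = 2`: the field has four or five elements
      have h7 : Fintype.card F = 4 ∨ Fintype.card F = 5 := by omega
      rcases h7 with h7 | h7
      · rw [h7] at h1
        norm_num at h1
      · rw [h7] at hq'
        have hd3 : d' ≤ 2 := by
          by_contra hc'
          have : 2 ^ 3 ≤ (0 + 2) ^ d' := Nat.pow_le_pow_right (by norm_num) (by omega)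
          omega
        have hd2 : d' = 2 := by omega
        subst hd2
        norm_num at hq'
    · -- `m' = 3`
      have h7 : d' = 2 ∨ 3 ≤ d' := by omega
      rcases h7 with rfl | h7
      · norm_num at hq'
        exact h9 hq'.symm
      · have : 3 ^ 3 ≤ (1 + 2) ^ d' := Nat.pow_le_pow_right (by norm_num) h7
        omega

/-- Existence of seeds. -/
theorem exists_seed [Fintype F] (hn : 2 ≤ n) (h22 : ¬ (n = 2 ∧ Fintype.card F = 2)) :
    ∃ g ∈ IsomGroup (form n F), ∃ c₀ : F, c₀ ≠ 0 ∧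
      g * uu n F * g⁻¹ = tv form_isAlt (ee n F 0) c₀ * uu n F := by
  by_cases h2 : n = 2
  · subst h2
    have hc : 3 ≤ Fintype.card F := by
      have : 2 ≤ Fintype.card F := Fintype.one_lt_card
      have h1 : Fintype.card F ≠ 2 := fun h => h22 ⟨rfl, h⟩
      omega
    obtain ⟨s, hs0, hs1⟩ : ∃ s : F, s ≠ 0 ∧ s ≠ 1 := by
      classical
      have h3 : 2 < Fintype.card F := by omega
      obtain ⟨s, -, hs⟩ := Finset.exists_mem_notMem_of_card_lt_card
        (s := ({0, 1} : Finset F)) (t := Finset.univ) (by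
          rw [Finset.card_univ]
          exact lt_of_le_of_lt (Finset.card_le_two) h3)
      simp only [Finset.mem_insert, Finset.mem_singleton, not_or] at hs
      exact ⟨s, hs.1, hs.2⟩
    obtain ⟨g, hg, he⟩ := seed_two (s := s)
    refine ⟨g, hg, s ^ 2 - s, ?_, he⟩
    have : s ^ 2 - s = s * (s - 1) := by ring
    rw [this]
    exact mul_ne_zero hs0 (sub_ne_zero.2 hs1)
  · obtain ⟨g, hg, he⟩ := seed_three (by omega : 3 ≤ n) (1 : F)
    exact ⟨g, hg, 1, one_ne_zero, he⟩

/-- The generic case: parameters `p`. -/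
theorem gen_generic [Fintype F] (hn : 2 ≤ n) (h22 : ¬ (n = 2 ∧ Fintype.card F = 2)) {p : F}
    (hp0 : p ≠ 0) (hp1 : p ≠ 1) (hρ : Subring.closure ({p ^ 2} : Set F) = ⊤)
    (hex : ∃ s : ℕ → F, IsMono n s ∧ s 1 = (p - 1) * s 0 ∧ p * s 2 = -(1 + p) ^ 2 * s 1) :
    ∃ g ∈ IsomGroup (form n F), ∃ h ∈ IsomGroup (form n F), HH n F g h = IsomGroup (form n F) := by
  obtain ⟨s, hs, hs1, hs2⟩ := hex
  obtain ⟨g, hg, c₀, hc₀, hgu⟩ := exists_seed (F := F) hn h22
  obtain ⟨y, hy, hy0, hy1, hy2⟩ := exists_yy hn (-(1 + p) : F)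
  refine ⟨g, hg, hh s hs y, hh_mem s hs hy, ?_⟩
  refine assemble hn hg (hh_mem s hs hy) hc₀ hgu (hh_ep hn s hs hy0) (form_ep hn s hs) ?_
    (Or.inl ⟨p, hp0, hp1⟩)
  refine ⟨_, mul_mem (mul_mem (conj'_mem_HH g _) (uu_mem_HH g _)) (conj'_mem_HH g _), p, ?_, hρ⟩
  exact word_scale hn s hs hy0 hy1 hy2 hs1 hs2 rfl

/-- The prime field case. -/
theorem gen_prime [Fintype F] (hn : 2 ≤ n) (h22 : ¬ (n = 2 ∧ Fintype.card F = 2))
    (hρ : Subring.closure ({(1 : F) ^ 2} : Set F) = ⊤) :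
    ∃ g ∈ IsomGroup (form n F), ∃ h ∈ IsomGroup (form n F), HH n F g h = IsomGroup (form n F) := by
  obtain ⟨s, hs, hs0, hs1, -⟩ := exists_mono (F := F) (n := n) hn (s₀ := 1) (s₁ := 1) (s₂ := 1)
    one_ne_zero one_ne_zero one_ne_zero
  obtain ⟨g, hg, c₀, hc₀, hgu⟩ := exists_seed (F := F) hn h22
  have hy : (1 : (Fin (2 * n) → F) ≃ₗ[F] (Fin (2 * n) → F)) ∈ IsomGroup (form n F) := one_mem _
  have hy0 : (1 : (Fin (2 * n) → F) ≃ₗ[F] (Fin (2 * n) → F)) (ee n F 0) = ee n F 0 := rfl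
  have hy1 : (1 : (Fin (2 * n) → F) ≃ₗ[F] (Fin (2 * n) → F)) (ee n F 1) =
      ee n F 1 + (0 : F) • ee n F 2 := by simp
  refine ⟨g, hg, hh s hs 1, hh_mem s hs hy, ?_⟩
  refine assemble hn hg (hh_mem s hs hy) hc₀ hgu (hh_ep hn s hs hy0) (form_ep hn s hs)
    ⟨1, one_mem _, 1, by simp, hρ⟩ ?_
  by_cases h3 : ∃ a : F, a ≠ 0 ∧ a ≠ 1
  · exact Or.inl h3
  · right
    push Not at h3
    refine ⟨fun a => ?_, ?_⟩
    · by_cases h : a = 0
      · exact Or.inl h
      · exact Or.inr (h3 a h)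
    · rw [word_w hn s hs hy0 hy1, hs0, hs1]
      simp

end Cfsg.Agent.Lib.Classical.Symp.RegModel
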