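import Mathlib
import Cfsg.Agent.Lib.Classical.Symp.IsoCount

/-!
# The action of `Sp` on isotropic frames; the Borel subgroup
-/

set_option autoImplicit false

namespace Cfsg.Agent.Lib.Classical.Symp.Borel

open Matrix Cfsg Cfsg.Agent.Lib.Classical.Symp.Basic Cfsg.Agent.Lib.Classical.Symp.AltForm
open Cfsg.Agent.Lib.Classical.Symp.IsoCount Cfsg.Agent.Lib.Classical.Symp.Count
open Cfsg.Agent.Lib.Classical.Symp.SpGL

variable {m k : ℕ} {F : Type*} [Field F]

theorem li_mulVec (g : symplecticGroup (Fin m) F) {t : Fin k → (Fin m ⊕ Fin m → F)}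
    (h : LinearIndependent F t) : LinearIndependent F (fun i => g.1 *ᵥ t i) := by
  have h1 := h.map' (spEquivIsom g).1.toLinearMap (LinearEquiv.ker _)
  have e : ((spEquivIsom g).1.toLinearMap ∘ t) = fun i => g.1 *ᵥ t i := by
    funext i
    exact spEquivIsom_apply g (t i)
  rwa [e] at h1

theorem form_mulVec (g : symplecticGroup (Fin m) F) (u v : Fin m ⊕ Fin m → F) :
    sympBilin m F (g.1 *ᵥ u) (g.1 *ᵥ v) = sympBilin m F u v :=
  mem_symplecticGroup_iff_forall.mp g.2 u v

/-- `Sp` acts on isotropic frames. -/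
noncomputable instance frameAction : MulAction (symplecticGroup (Fin m) F) (IsoFrame (sympBilin m F) k) where
  smul g s := ⟨fun i => g.1 *ᵥ s.1 i, li_mulVec g s.2.1, fun i j =>
      (form_mulVec g _ _).trans (s.2.2 i j)⟩
  one_smul s := by
    apply Subtype.ext
    funext i
    change (1 : Matrix _ _ F) *ᵥ s.1 i = s.1 i
    simp
  mul_smul a b s := by
    apply Subtype.ext
    funext i
    change (a.1 * b.1) *ᵥ s.1 i = a.1 *ᵥ (b.1 *ᵥ s.1 i)
    rw [mulVec_mulVec]

theorem coe_smul_frame (g : symplecticGroup (Fin m) F) (s : IsoFrame (sympBilin m F) k) (i : Fin k) :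
    (g • s).1 i = g.1 *ᵥ s.1 i := rfl

/-- Witt: transitivity on isotropic frames. -/
instance isPretransitive_frame :
    MulAction.IsPretransitive (symplecticGroup (Fin m) F) (IsoFrame (sympBilin m F) k) := by
  constructor
  intro s s'
  classical
  have hiso : ∀ (t : IsoFrame (sympBilin m F) k) (a b : Fin k → F),
      sympBilin m F (Fintype.linearCombination F t.1 a) (Fintype.linearCombination F t.1 b) = 0 := by
    intro t a b
    apply span_isotropic t.2.2
    · rw [Fintype.linearCombination_apply]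
      exact Submodule.sum_mem _ fun i _ => Submodule.smul_mem _ _ (Submodule.subset_span ⟨i, rfl⟩)
    · rw [Fintype.linearCombination_apply]
      exact Submodule.sum_mem _ fun i _ => Submodule.smul_mem _ _ (Submodule.subset_span ⟨i, rfl⟩)
  obtain ⟨g, hg, hgL⟩ := witt_of_injective (sympBilin m F) sympBilin_nondegenerate sympBilin_isAlt
    (Fintype.linearCombination F s.1) (Fintype.linearCombination F s'.1)
    (linearIndependent_iff_injective_fintypeLinearCombination.mp s.2.1)
    (linearIndependent_iff_injective_fintypeLinearCombination.mp s'.2.1)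
    (fun a b => by rw [hiso, hiso])
  refine ⟨spEquivIsom.symm ⟨g, hg⟩, ?_⟩
  apply Subtype.ext
  funext i
  rw [coe_smul_frame]
  have h1 := spEquivIsom_apply (spEquivIsom.symm ⟨g, hg⟩) (s.1 i)
  rw [MulEquiv.apply_symm_apply] at h1
  rw [← h1]
  have h2 := hgL (Pi.single i 1)
  rw [Fintype.linearCombination_apply_single, Fintype.linearCombination_apply_single, one_smul, one_smul] at h2
  exact h2

/-- Orbit-stabiliser for frames. -/
theorem card_stabilizer_frame_mul [Finite F] (s : IsoFrame (sympBilin m F) k) :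
    Nat.card (MulAction.stabilizer (symplecticGroup (Fin m) F) s) * Nat.card (IsoFrame (sympBilin m F) k) =
      Nat.card (symplecticGroup (Fin m) F) := by
  have h1 := MulAction.index_stabilizer_of_transitive (symplecticGroup (Fin m) F) s
  have h2 := Subgroup.card_mul_index (MulAction.stabilizer (symplecticGroup (Fin m) F) s)
  rwa [h1] at h2

/-- The coordinate flag. -/
def fl (m : ℕ) (F : Type*) [Field F] (j : ℕ) : Submodule F (Fin m ⊕ Fin m → F) where
  carrier := {v | (∀ i : Fin m, j ≤ (i : ℕ) → v (Sum.inl i) = 0) ∧ ∀ i : Fin m, v (Sum.inr i) = 0}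
  add_mem' {a b} ha hb := ⟨fun i hi => by simp [ha.1 i hi, hb.1 i hi], fun i => by simp [ha.2 i, hb.2 i]⟩
  zero_mem' := ⟨fun _ _ => rfl, fun _ => rfl⟩
  smul_mem' c a ha := ⟨fun i hi => by simp [ha.1 i hi], fun i => by simp [ha.2 i]⟩

theorem mem_fl {j : ℕ} {v : Fin m ⊕ Fin m → F} :
    v ∈ fl m F j ↔ (∀ i : Fin m, j ≤ (i : ℕ) → v (Sum.inl i) = 0) ∧ ∀ i : Fin m, v (Sum.inr i) = 0 :=
  Iff.rfl

theorem fl_mono {j j' : ℕ} (h : j ≤ j') : fl m F j ≤ fl m F j' :=
  fun _ hv => ⟨fun i hi => hv.1 i (h.trans hi), hv.2⟩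

/-- The coordinates of `fl j`. -/
noncomputable def flEquiv {j : ℕ} (hj : j ≤ m) : fl m F j ≃ₗ[F] (Fin j → F) where
  toFun v i := v.1 (Sum.inl (Fin.castLE hj i))
  map_add' _ _ := rfl
  map_smul' _ _ := rfl
  invFun a := ⟨Sum.elim (fun i => if h : (i : ℕ) < j then a ⟨i, h⟩ else 0) (fun _ => 0),
    fun i hi => by
      have : ¬ (i : ℕ) < j := by omega
      simp [this], fun i => rfl⟩
  left_inv v := by
    apply Subtype.ext
    funext x
    rcases x with i | i
    · by_cases h : (i : ℕ) < j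
      · simp [h]
      · simp [h, v.2.1 i (by omega)]
    · simp [v.2.2 i]
  right_inv a := by
    funext i
    simp

theorem finrank_fl {j : ℕ} (hj : j ≤ m) : Module.finrank F (fl m F j) = j := by
  rw [(flEquiv hj).finrank_eq, Module.finrank_fin_fun]

theorem fl_isotropic {j : ℕ} {u v : Fin m ⊕ Fin m → F} (hu : u ∈ fl m F j) (hv : v ∈ fl m F j) :
    sympForm m F u v = 0 := by
  rw [sympForm_apply]
  apply Finset.sum_eq_zero
  intro i _
  rw [hu.2 i, hv.2 i]
  simp

/-- The property of being adapted to the flag. -/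
def Adapted (s : Fin m → (Fin m ⊕ Fin m → F)) : Prop :=
  ∀ k : Fin m, s k ∈ fl m F ((k : ℕ) + 1) ∧ s k ∉ fl m F (k : ℕ)

theorem adapted_coord {s : Fin m → (Fin m ⊕ Fin m → F)} (hs : Adapted s) (k : Fin m) :
    s k (Sum.inl k) ≠ 0 := by
  intro h0
  apply (hs k).2
  refine ⟨fun i hi => ?_, (hs k).1.2⟩
  rcases Nat.eq_or_lt_of_le hi with h | h
  · have : i = k := Fin.ext h.symm
    rw [this, h0]
  · exact (hs k).1.1 i h

theorem adapted_li {s : Fin m → (Fin m ⊕ Fin m → F)} (hs : Adapted s) : LinearIndependent F s := by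
  classical
  rw [Fintype.linearIndependent_iff]
  intro a ha
  by_contra hcon
  push Not at hcon
  obtain ⟨i₀, hi₀⟩ := hcon
  let T : Finset (Fin m) := Finset.univ.filter fun i => a i ≠ 0
  have hT : T.Nonempty := ⟨i₀, by simp [T, hi₀]⟩
  have hmax := Finset.max'_mem T hT
  set k := T.max' hT with hk
  have hka : a k ≠ 0 := by simpa [T] using hmax
  have hgt : ∀ i, k < i → a i = 0 := by
    intro i hi
    by_contra hn
    have : i ∈ T := by simp [T, hn]
    exact absurd (Finset.le_max' T i this) (not_le.mpr hi)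
  have h1 := congrFun ha (Sum.inl k)
  simp only [Finset.sum_apply, Pi.smul_apply, smul_eq_mul, Pi.zero_apply] at h1
  rw [Finset.sum_eq_single k] at h1
  · exact (mul_ne_zero hka (adapted_coord hs k)) h1
  · intro j _ hj
    rcases lt_or_gt_of_ne hj with h | h
    · rw [(hs j).1.1 k (by
        have : (j : ℕ) < k := h
        omega)]
      simp
    · rw [hgt j h]
      simp
  · simp

theorem adapted_isotropic {s : Fin m → (Fin m ⊕ Fin m → F)} (hs : Adapted s) (i j : Fin m) :
    sympBilin m F (s i) (s j) = 0 := by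
  have h1 : s i ∈ fl m F m := fl_mono (by omega) (hs i).1
  have h2 : s j ∈ fl m F m := fl_mono (by omega) (hs j).1
  exact fl_isotropic h1 h2

/-- The frame attached to an adapted tuple. -/
def adaptedFrame {s : Fin m → (Fin m ⊕ Fin m → F)} (hs : Adapted s) : IsoFrame (sympBilin m F) m :=
  ⟨s, adapted_li hs, adapted_isotropic hs⟩

/-- The standard frame. -/
def e₀ (i : Fin m) : Fin m ⊕ Fin m → F := Pi.single (Sum.inl i) 1

theorem e₀_adapted : Adapted (e₀ (m := m) (F := F)) := by
  intro k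
  constructor
  · refine ⟨fun i hi => ?_, fun i => ?_⟩
    · have : Sum.inl i ≠ (Sum.inl k : Fin m ⊕ Fin m) := by
        intro h
        have := Sum.inl_injective h
        rw [this] at hi
        omega
      simp [e₀, this]
    · simp [e₀]
  · intro h
    have := h.1 k le_rfl
    simp [e₀] at this

theorem eq_sum_e₀ {v : Fin m ⊕ Fin m → F} (hv : ∀ i : Fin m, v (Sum.inr i) = 0) :
    v = ∑ i, v (Sum.inl i) • e₀ i := by
  classical
  funext x
  simp only [Finset.sum_apply, Pi.smul_apply, smul_eq_mul, e₀]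
  rcases x with j | j
  · rw [Finset.sum_eq_single j]
    · simp
    · intro i _ hi
      have : Sum.inl j ≠ (Sum.inl i : Fin m ⊕ Fin m) := fun h => hi (Sum.inl_injective h).symm
      simp [this]
    · simp
  · simp [hv j]

/-- The Borel subgroup. -/
def bo (m : ℕ) (F : Type*) [Field F] : Subgroup (symplecticGroup (Fin m) F) :=
  ⨅ k : Fin m, Cfsg.stabilizing (Cfsg.spToMat m F) {v : Fin m ⊕ Fin m → F | (∀ i : Fin m, (k : ℕ) < (i : ℕ) → v (Sum.inl i) = 0) ∧ ∀ i : Fin m, v (Sum.inr i) = 0}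

theorem mem_bo {g : symplecticGroup (Fin m) F} :
    g ∈ bo m F ↔ ∀ k : Fin m, ∀ v, v ∈ fl m F ((k : ℕ) + 1) ↔ g.1 *ᵥ v ∈ fl m F ((k : ℕ) + 1) := by
  rw [bo, Subgroup.mem_iInf]
  rfl

theorem mulVec_add_sp (g : symplecticGroup (Fin m) F) (U : Submodule F (Fin m ⊕ Fin m → F))
    (h : ∀ v ∈ U, g.1 *ᵥ v ∈ U) (v : Fin m ⊕ Fin m → F) : v ∈ U ↔ g.1 *ᵥ v ∈ U := by
  refine ⟨h v, fun hv => ?_⟩
  let φ := (spEquivIsom g).1
  have hφ : ∀ x, φ x = g.1 *ᵥ x := fun x => spEquivIsom_apply g x
  have hle : U.map φ.toLinearMap ≤ U := by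
    rintro _ ⟨x, hx, rfl⟩
    exact (hφ x).symm ▸ h x hx
  have heq : U.map φ.toLinearMap = U :=
    Submodule.eq_of_le_of_finrank_eq hle (LinearEquiv.finrank_map_eq _ _)
  rw [← hφ, ← heq] at hv
  obtain ⟨x, hx, e⟩ := hv
  have : x = v := φ.injective e
  rwa [← this]

/-- An element mapping the standard frame to an adapted tuple is in the Borel subgroup. -/
theorem mem_bo_of_adapted {g : symplecticGroup (Fin m) F}
    (hs : Adapted (fun i => g.1 *ᵥ e₀ (F := F) i)) : g ∈ bo m F := by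
  rw [mem_bo]
  intro k
  apply mulVec_add_sp
  intro v hv
  have h1 := eq_sum_e₀ hv.2
  rw [h1, Matrix.mulVec_sum]
  apply Submodule.sum_mem
  intro i _
  rw [Matrix.mulVec_smul]
  by_cases hi : (k : ℕ) + 1 ≤ (i : ℕ)
  · rw [hv.1 i hi, zero_smul]
    exact Submodule.zero_mem _
  · exact Submodule.smul_mem _ _ (fl_mono (by omega) (hs i).1)

/-- Elements of the Borel subgroup preserve being adapted. -/
theorem adapted_of_mem_bo {g : symplecticGroup (Fin m) F} (hg : g ∈ bo m F)
    {s : Fin m → (Fin m ⊕ Fin m → F)} (hs : Adapted s) : Adapted (fun i => g.1 *ᵥ s i) := by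
  intro k
  rw [mem_bo] at hg
  refine ⟨(hg k (s k)).1 (hs k).1, fun h => (hs k).2 ?_⟩
  rcases Nat.eq_zero_or_pos (k : ℕ) with h0 | h0
  · -- `fl 0` is zero
    have h2 : g.1 *ᵥ s k = 0 := by
      funext x
      rw [h0] at h
      rcases x with i | i
      · exact h.1 i (Nat.zero_le _)
      · exact h.2 i
    have h3 : s k = 0 := by
      have h4 := spEquivIsom_apply g (s k)
      rw [h2] at h4
      exact (LinearEquiv.map_eq_zero_iff _).mp h4
    rw [h3]
    exact Submodule.zero_mem _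
  · let k' : Fin m := ⟨(k : ℕ) - 1, by omega⟩
    have hk' : (k' : ℕ) + 1 = k := by
      change (k : ℕ) - 1 + 1 = k
      omega
    have := hg k' (s k)
    rw [hk'] at this
    exact this.2 h

section Finite

variable [Finite F]

theorem card_adapted_fibre {q : ℕ} (hq : Nat.card F = q) (k : Fin m) :
    Nat.card {v : Fin m ⊕ Fin m → F // v ∈ fl m F ((k : ℕ) + 1) ∧ v ∉ fl m F (k : ℕ)} =
      q ^ ((k : ℕ) + 1) - q ^ (k : ℕ) := by
  rw [card_subtype_mem_notMem (fl_mono (by omega)), finrank_fl (by omega), finrank_fl (by omega), hq]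

/-- The number of adapted tuples. -/
theorem card_adapted {q : ℕ} (hq : Nat.card F = q) :
    Nat.card {s : Fin m → (Fin m ⊕ Fin m → F) // Adapted s} =
      ∏ k : Fin m, (q ^ ((k : ℕ) + 1) - q ^ (k : ℕ)) := by
  classical
  haveI : ∀ k : Fin m, Finite {v : Fin m ⊕ Fin m → F // v ∈ fl m F ((k : ℕ) + 1) ∧ v ∉ fl m F (k : ℕ)} :=
    fun _ => inferInstance
  have e : {s : Fin m → (Fin m ⊕ Fin m → F) // ∀ k : Fin m, s k ∈ fl m F ((k : ℕ) + 1) ∧ s k ∉ fl m F (k : ℕ)} ≃
      Π k : Fin m, {v : Fin m ⊕ Fin m → F // v ∈ fl m F ((k : ℕ) + 1) ∧ v ∉ fl m F (k : ℕ)} :=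
    Equiv.subtypePiEquivPi (β := fun _ : Fin m => Fin m ⊕ Fin m → F)
      (p := fun (k : Fin m) v => v ∈ fl m F ((k : ℕ) + 1) ∧ v ∉ fl m F (k : ℕ))
  have e' : Nat.card {s : Fin m → (Fin m ⊕ Fin m → F) // Adapted s} =
      Nat.card {s : Fin m → (Fin m ⊕ Fin m → F) // ∀ k : Fin m, s k ∈ fl m F ((k : ℕ) + 1) ∧ s k ∉ fl m F (k : ℕ)} := rfl
  rw [e', Nat.card_congr e, Nat.card_pi]
  exact Finset.prod_congr rfl fun k _ => card_adapted_fibre hq k

/-- The order of the Borel subgroup. -/
theorem card_bo {q : ℕ} (hq : Nat.card F = q) : Nat.card (bo m F) = q ^ (m ^ 2) * (q - 1) ^ m := by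
  classical
  let s₀ : IsoFrame (sympBilin m F) m := adaptedFrame e₀_adapted
  -- the orbit of `s₀` under `bo`
  have h1 := card_stabilizer_frame_mul s₀
  have h2 := Subgroup.card_mul_index (MulAction.stabilizer (bo m F) s₀)
  rw [MulAction.index_stabilizer] at h2
  have horbit : (MulAction.orbit (bo m F) s₀).ncard = ∏ k : Fin m, (q ^ ((k : ℕ) + 1) - q ^ (k : ℕ)) := by
    rw [← card_adapted hq, ← Nat.card_coe_set_eq]
    apply Nat.card_congr
    refine ⟨fun x => ⟨x.1.1, ?_⟩, fun x => ⟨adaptedFrame x.2, ?_⟩, ?_, ?_⟩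
    · obtain ⟨_, g, rfl⟩ := x
      exact adapted_of_mem_bo g.2 e₀_adapted
    · -- transitivity
      obtain ⟨g, hg⟩ := MulAction.exists_smul_eq (symplecticGroup (Fin m) F) s₀ (adaptedFrame x.2)
      have h3 : ∀ i, g.1 *ᵥ e₀ (F := F) i = x.1 i := fun i => congrFun (congrArg Subtype.val hg) i
      have h4 : g ∈ bo m F := by
        apply mem_bo_of_adapted
        have : (fun i => g.1 *ᵥ e₀ (F := F) i) = x.1 := funext h3
        rw [this]
        exact x.2
      exact ⟨⟨g, h4⟩, hg⟩
    · intro x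
      apply Subtype.ext
      apply Subtype.ext
      rfl
    · intro x
      apply Subtype.ext
      rfl
  have hstab : Nat.card (MulAction.stabilizer (bo m F) s₀) =
      Nat.card (MulAction.stabilizer (symplecticGroup (Fin m) F) s₀) := by
    apply Nat.card_congr
    refine ⟨fun x => ⟨x.1.1, x.2⟩, fun x => ⟨⟨x.1, ?_⟩, x.2⟩, ?_, ?_⟩
    · apply mem_bo_of_adapted
      have h3 : ∀ i, x.1.1 *ᵥ e₀ (F := F) i = e₀ i := fun i => congrFun (congrArg Subtype.val x.2) i
      have : (fun i => x.1.1 *ᵥ e₀ (F := F) i) = e₀ := funext h3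
      rw [this]
      exact e₀_adapted
    · intro x
      rfl
    · intro x
      rfl
  rw [hstab, horbit] at h2
  rw [card_symplecticGroup hq, card_isoFrame sympBilin_isAlt sympBilin_nondegenerate] at h1
  have hrk : Module.finrank F (Fin m ⊕ Fin m → F) = 2 * m := by
    simp [Module.finrank_fintype_fun_eq_card]
    ring
  rw [hrk, hq] at h1
  have hq2 : 2 ≤ q := by
    rw [← hq]
    exact Finite.one_lt_card
  -- the arithmetic
  set S := Nat.card (MulAction.stabilizer (symplecticGroup (Fin m) F) s₀) with hS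
  set O := ∏ k : Fin m, (q ^ ((k : ℕ) + 1) - q ^ (k : ℕ)) with hO
  have key : Nat.card (bo m F) * ∏ i : Fin m, (q ^ (2 * m - i) - q ^ (i : ℕ)) =
      (q ^ (m ^ 2) * ∏ i ∈ Finset.range m, (q ^ (2 * (i + 1)) - 1)) * O := by
    rw [← h2, ← h1]
    ring
  have h5 := parabolic_arith hq2 le_rfl key
  have hm0 : m - m = 0 := by omega
  simp only [hm0, mul_zero, add_zero, zero_pow (two_ne_zero), pow_zero, Finset.range_zero,
    Finset.prod_empty, mul_one] at h5
  rw [h5, hO]
  have h6 : ∏ k : Fin m, (q ^ ((k : ℕ) + 1) - q ^ (k : ℕ)) =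
      q ^ (∑ i ∈ Finset.range m, i) * (q - 1) ^ m := by
    rw [Fin.prod_univ_eq_prod_range (fun k => q ^ (k + 1) - q ^ k) m,
      ← Finset.prod_pow_eq_pow_sum]
    have h7 : (q - 1) ^ m = ∏ _i ∈ Finset.range m, (q - 1) := by simp
    rw [h7, ← Finset.prod_mul_distrib]
    apply Finset.prod_congr rfl
    intro i _
    rw [pow_succ, Nat.mul_sub, mul_one]
  rw [h6]
  have h2t : ∀ k : ℕ, 2 * (∑ i ∈ Finset.range k, i) + k = k ^ 2 := by
    intro k
    induction k with
    | zero => simp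
    | succ k ih =>
      rw [Finset.sum_range_succ]
      nlinarith
  have h8 := h2t m
  have hdiv : m * (m + 1) / 2 = (∑ i ∈ Finset.range m, i) + m := by
    have : m * (m + 1) = 2 * ((∑ i ∈ Finset.range m, i) + m) := by nlinarith
    rw [this]
    simp
  rw [hdiv, ← mul_assoc, ← pow_add]
  congr 2
  omega

end Finite

end Cfsg.Agent.Lib.Classical.Symp.Borel
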