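import Mathlib
import Cfsg.Agent.Lib.Classical.Symp.RegModel5

/-!
# The field with nine elements in dimension four; the generation theorem in the model
-/

set_option autoImplicit false
set_option linter.unusedSectionVars false
set_option linter.unusedSimpArgs false

namespace Cfsg.Agent.Lib.Classical.Symp.RegModel

open Cfsg.Agent.Lib.Classical.Symp.AltForm
open Cfsg.Agent.Lib.Classical.Symp.RegGrowth

variable {F : Type*} [Field F]

/-- A vector of the four-dimensional model. -/
noncomputable def vv (a b c d : F) : Fin (2 * 2) → F :=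
  a • ee 2 F 0 + b • ee 2 F 1 + c • ee 2 F 2 + d • ee 2 F 3

theorem uu_ee_three : uu 2 F (ee 2 F 3) = ee 2 F 3 + ee 2 F 2 + ee 2 F 1 := by
  rw [uu_apply, Tq0_odd _ (by omega) (by omega), map_add, one_smul,
    Tq1_low _ (by omega) (by omega), Tq1_even _ (by omega) (by omega) (by omega), one_smul,
    add_assoc]

theorem uu_vv (a b c d : F) : uu 2 F (vv a b c d) = vv (a + b) (b + c + d) (c + d) d := by
  simp only [vv, map_add, map_smul]
  rw [uu_ee_zero (by omega), uu_ee_one (by omega), uu_ee_two (by omega), uu_ee_three]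
  module

theorem hh_vv (s : ℕ → F) (hs : IsMono 2 s) (a b c d : F) :
    hh s hs 1 (vv a b c d) = vv (s 0 * d) (s 1 * (c + d)) (s 2 * b) (s 3 * (a + b)) := by
  simp only [vv, map_add, map_smul, hh_apply]
  rw [Tq0_even _ (by omega) (by omega), Tq0_odd _ (by omega) (by omega),
    Tq0_even _ (by omega) (by omega), Tq0_odd _ (by omega) (by omega)]
  simp only [map_add, map_smul, one_smul]
  rw [Mq_ee s hs (by omega), Mq_ee s hs (by omega), Mq_ee s hs (by omega), Mq_ee s hs (by omega)]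
  norm_num
  module

theorem vv_eq {a b c d a' b' c' d' : F} (h1 : a = a') (h2 : b = b') (h3 : c = c') (h4 : d = d') :
    vv a b c d = vv a' b' c' d' := by
  subst h1 h2 h3 h4
  rfl

theorem vv_ee : vv (1 : F) 0 0 0 = ee 2 F 0 := by
  simp [vv]

theorem vv_smul (t : F) : vv (t : F) 0 0 0 = t • ee 2 F 0 := by
  simp [vv]

theorem chain_apply {V : Type*} [AddCommGroup V] [Module F V] (w u : V ≃ₗ[F] V)
    {v0 v1 v2 v3 v4 v5 v6 v7 v8 : V} (e1 : w v1 = v0) (e2 : u v2 = v1) (e3 : w v3 = v2)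
    (e4 : u v4 = v3) (e5 : w⁻¹ v5 = v4) (e6 : u v6 = v5) (e7 : w v7 = v6) (e8 : w v8 = v7) :
    (w * u * w * u * w⁻¹ * u * w * w) v8 = v0 := by
  simp only [LinearEquiv.mul_apply]
  rw [e8, e7, e6, e5, e4, e3, e2, e1]

/-- The case of the field with nine elements. -/
theorem gen_nine [Fintype F] (h9 : Fintype.card F = 9) :
    ∃ g ∈ IsomGroup (form 2 F), ∃ h ∈ IsomGroup (form 2 F), HH 2 F g h = IsomGroup (form 2 F) := by
  have h3 : (3 : F) = 0 := by
    have h1 : ((Fintype.card F : ℕ) : F) = 0 := Nat.cast_card_eq_zero F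
    rw [h9] at h1
    have h2 : (3 : F) * 3 = 0 := by
      rw [← h1]
      norm_num
    exact mul_self_eq_zero.1 h2
  obtain ⟨i, hi⟩ : ∃ i : F, i ^ 2 = -1 := by
    have h1 : IsSquare (-1 : F) := by
      rw [FiniteField.isSquare_neg_one_iff, h9]
      norm_num
    obtain ⟨i, hi⟩ := h1
    exact ⟨i, by rw [hi]; ring⟩
  have h10 : (1 : F) ≠ 0 := one_ne_zero
  have hi0 : i ≠ 0 := by
    rintro rfl
    apply h10
    linear_combination hi
  have h2ne : (2 : F) ≠ 0 := by
    intro h
    apply h10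
    linear_combination h3 - h
  set s : ℕ → F := fun k => if k = 0 then i else if k = 1 then 1 - i else if k = 2 then 1 + i else i
    with hsdef
  have s0 : s 0 = i := by simp [hsdef]
  have s1 : s 1 = 1 - i := by simp [hsdef]
  have s2 : s 2 = 1 + i := by simp [hsdef]
  have s3 : s 3 = i := by simp [hsdef]
  have hs : IsMono 2 s := by
    intro k hk
    have hk' : k = 0 ∨ k = 1 ∨ k = 2 ∨ k = 3 := by omega
    rcases hk' with rfl | rfl | rfl | rfl
    · show s 0 * s 3 = -1
      rw [s0, s3]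
      linear_combination hi
    · show s 1 * s 2 = -1
      rw [s1, s2]
      linear_combination -hi + h3
    · show s 2 * s 1 = -1
      rw [s1, s2]
      linear_combination -hi + h3
    · show s 3 * s 0 = -1
      rw [s0, s3]
      linear_combination hi
  obtain ⟨g, hg, c₀, hc₀, hgu⟩ := exists_seed (F := F) (n := 2) (le_refl 2) (by
    rintro ⟨-, h⟩
    omega)
  have hy : (1 : (Fin (2 * 2) → F) ≃ₗ[F] (Fin (2 * 2) → F)) ∈ IsomGroup (form 2 F) := one_mem _
  have hy0 : (1 : (Fin (2 * 2) → F) ≃ₗ[F] (Fin (2 * 2) → F)) (ee 2 F 0) = ee 2 F 0 := rfl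
  set h := hh s hs 1 with hdef
  set u := uu 2 F with hudef
  have hw : ∀ a b c d : F, (h * u * h⁻¹) (vv a b c d) =
      vv a (-(1 + i) * a + b) (i * b + c) ((1 - i) * b - (1 + i) * c + d) := by
    intro a b c d
    have e : vv a b c d = h (vv (-i * d + (1 - i) * c) ((-1 + i) * c)
        (-(1 + i) * b + i * a) (-i * a)) := by
      rw [hdef, hh_vv, s0, s1, s2, s3]
      apply vv_eq <;> grind
    rw [e, conj_apply, hudef, uu_vv, hdef, hh_vv, s0, s1, s2, s3]
    apply vv_eq <;> grind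
  have hu : ∀ a b c d : F, u (vv a b c d) = vv (a + b) (b + c + d) (c + d) d := uu_vv
  set w := h * u * h⁻¹ with hwdef
  set v0 := vv (1 : F) 0 0 0
  set v1 := vv (1 : F) (1 + i) (1 - i) 0
  set v2 := vv (1 + i : F) (-i) (1 - i) 0
  set v3 := vv (1 + i : F) i (-1 - i) (-1)
  set v4 := vv (-i : F) (1 - i) (-i) (-1)
  set v5 := vv (-i : F) 0 1 (1 - i)
  set v6 := vv (1 - i : F) (-1) i (1 - i)
  set v7 := vv (1 - i : F) 1 0 0
  set v8 := vv (1 - i : F) 0 0 0
  have e1 : w v1 = v0 := by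
    rw [hw]
    apply vv_eq <;> grind
  have e2 : u v2 = v1 := by
    rw [hu]
    apply vv_eq <;> grind
  have e3 : w v3 = v2 := by
    rw [hw]
    apply vv_eq <;> grind
  have e4 : u v4 = v3 := by
    rw [hu]
    apply vv_eq <;> grind
  have e5 : w v4 = v5 := by
    rw [hw]
    apply vv_eq <;> grind
  have e6 : u v6 = v5 := by
    rw [hu]
    apply vv_eq <;> grind
  have e7 : w v7 = v6 := by
    rw [hw]
    apply vv_eq <;> grind
  have e8 : w v8 = v7 := by
    rw [hw]
    apply vv_eq <;> grind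
  have e5' : w⁻¹ v5 = v4 := by
    rw [← e5]
    change (w⁻¹ * w) v4 = v4
    simp
  obtain ⟨G, hG⟩ : ∃ G, G = w * u * w * u * w⁻¹ * u * w * w := ⟨_, rfl⟩
  have hGv : G v8 = v0 := by
    rw [hG]
    clear_value w u v0 v1 v2 v3 v4 v5 v6 v7 v8
    exact chain_apply w u e1 e2 e3 e4 e5' e6 e7 e8
  have hGe : G (ee 2 F 0) = (-1 - i) • ee 2 F 0 := by
    have h1 : (1 - i) • G (ee 2 F 0) = ee 2 F 0 := by
      rw [← map_smul, ← vv_smul, ← vv_ee]
      exact hGv
    have h2 : (-1 - i) • (1 - i) • G (ee 2 F 0) = (-1 - i) • ee 2 F 0 := by rw [h1]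
    rw [smul_smul, show (-1 - i) * (1 - i) = 1 by grind, one_smul] at h2
    exact h2
  refine ⟨g, hg, h, hh_mem s hs hy, ?_⟩
  refine assemble (le_refl 2) hg (hh_mem s hs hy) hc₀ hgu (hh_ep (le_refl 2) s hs hy0)
    (form_ep (le_refl 2) s hs) ?_ (Or.inl ⟨-1, neg_ne_zero.2 h10, ?_⟩)
  · refine ⟨G, ?_, -1 - i, hGe, ?_⟩
    · have hwH : w ∈ HH 2 F g h := conj'_mem_HH g h
      have huH : u ∈ HH 2 F g h := uu_mem_HH g h
      rw [hG]
      exact mul_mem (mul_mem (mul_mem (mul_mem (mul_mem (mul_mem (mul_mem hwH huH) hwH) huH)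
        (inv_mem hwH)) huH) hwH) hwH
    · refine closure_eq_top_of ?_
      intro m d hq hd hm hc
      have hρ : (-1 - i) ^ 2 = -i := by grind
      rw [hρ] at hc
      have hle : m ^ 2 ≤ 9 := by
        rw [← h9, ← hq]
        exact Nat.pow_le_pow_right (by omega) hd
      have hm3 : m ≤ 3 := by nlinarith
      have hm' : m = 2 ∨ m = 3 := by omega
      rcases hm' with rfl | rfl
      · apply h10
        grind
      · apply h10
        grind
  · intro h
    apply h2ne
    linear_combination -h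

/-- The generation theorem in the model. -/
theorem model_main [Fintype F] {n : ℕ} (hn : 2 ≤ n) (h22 : ¬ (n = 2 ∧ Fintype.card F = 2)) :
    ∃ g ∈ IsomGroup (form n F), ∃ h ∈ IsomGroup (form n F), HH n F g h = IsomGroup (form n F) := by
  by_cases hprime : ∃ m d : ℕ, m ^ d = Fintype.card F ∧ 2 ≤ d ∧ 2 ≤ m
  · obtain ⟨m, d, hq, hd, hm⟩ := hprime
    by_cases h2 : n = 2
    · subst h2
      by_cases h9 : Fintype.card F = 9
      · exact gen_nine h9
      · obtain ⟨π, hπ0, hπ1, hπ2, hρ⟩ := exists_param_two hq hd hm h9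
        set p := π ^ 2 with hp
        have hp0 : p ≠ 0 := pow_ne_zero _ hπ0
        have hp1 : p - 1 ≠ 0 := sub_ne_zero.2 hπ1
        have hs1 : π / (1 + p) ≠ 0 := div_ne_zero hπ0 hπ2
        refine gen_generic (le_refl 2) h22 hp0 hπ1 hρ ?_
        obtain ⟨s, hs, e0, e1, e2⟩ := exists_mono (F := F) (n := 2) (le_refl 2)
          (s₀ := π / (1 + p) / (p - 1)) (s₁ := π / (1 + p)) (s₂ := 1) (div_ne_zero hs1 hp1) hs1
          one_ne_zero
        refine ⟨s, hs, ?_, ?_⟩
        · rw [e0, e1]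
          field_simp
        · rw [e1, e2, if_pos rfl, hp]
          field_simp
    · have hn3 : 3 ≤ n := by omega
      obtain ⟨p, hp0, hp1, hp2, hρ⟩ := exists_param_three hq hd hm
      have hp1' : p - 1 ≠ 0 := sub_ne_zero.2 hp1
      refine gen_generic hn h22 hp0 hp1 hρ ?_
      obtain ⟨s, hs, e0, e1, e2⟩ := exists_mono (F := F) (n := n) hn
        (s₀ := 1) (s₁ := p - 1) (s₂ := -(1 + p) ^ 2 * (p - 1) / p) one_ne_zero hp1'
        (div_ne_zero (mul_ne_zero (neg_ne_zero.2 (pow_ne_zero _ hp2)) hp1') hp0)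
      refine ⟨s, hs, ?_, ?_⟩
      · rw [e0, e1, mul_one]
      · rw [e1, e2, if_neg h2]
        field_simp
  · push Not at hprime
    refine gen_prime hn h22 (closure_eq_top_of ?_)
    intro m d hq hd hm
    exact absurd hm (not_le.2 (hprime m d hq hd))

end Cfsg.Agent.Lib.Classical.Symp.RegModel
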